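import Mathlib

set_option autoImplicit false

/-!
# Piece statements for S3912

(B): any two abelian subgroups of equal order are conjugate.  Claim: `G` finite solvable with (B),
`M ⊴ G`  ⟹  `G ⧸ M` has (B).

Plan.  Induction on `#G`: it suffices to find `⊥ ≠ N ≤ M`, `N ⊴ G`, with (B) for `G ⧸ N` (KEYSTEP,
INDUCT).  Take a normal `r`-subgroup `N₀ ≠ ⊥` of `G` inside `M` (KZERO) and a Sylow `r`-subgroup `R`.
* (E) `R` has exponent `r`: all subgroups of order `r` are conjugate (B) and one lies in `N₀ ⊴ G`,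
  so `R ≤ N₀`: `N₀` is a normal Sylow subgroup (EXPSYL).  Schur–Zassenhaus gives every abelian
  `Ā ≤ G ⧸ N₀` an abelian lift `A₀ ≅ Ā` (SZLIFT); lifts of equal order are conjugate (LIFTCRIT).
* (U) `R` has an element of order `r²`: by (B) `R` has no `Z_r × Z_r`, so `R` has a unique subgroup
  `Z₀` of order `r` (SYLUNIQ); `Z₀ ≤ N₀`, `Z₀ ⊴ G` is the only subgroup of order `r` of `G`
  (UNIQSUB).  `N := Z₀`.  For abelian `Ā ≤ G ⧸ Z₀` with preimage `A₁`: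
  `r ∤ #Ā`: SZLIFT.  `r ∣ #Ā`, `r` odd: `A₁` is abelian (ABODD: `A₁ = P × H`, SPLITA/SPLITB, and
  `P` abelian by the class-2 power map, PAB).  `r = 2`: `A₁` abelian or `A₁ = P × H` with `P`
  nonabelian of order 8 (TWOTYPE, P2STRUCT); a nonabelian subgroup of order 8 excludes elements of
  order 8 (NOEIGHT) and all such `P` lie in one normal `X` of order `8·odd` (QNORMAL), via
  `Q = G ⧸ O(G)`: it has a normal 2-subgroup `V` with `V / ⟨z⟩` elementary abelian (EXV), `#V ≤ 8`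
  (VSMALL), containing every element of order `≤ 4` (VALL4); so `V` = image of `P` (VCORE).
  Two preimages `P₁ × H₁`, `P₂ × H₂` are conjugate (TYPEII: (B) for the `H`'s, Sylow in `C_X(H)`).
-/

namespace Cfsg.Agent.Lib.Helper25.ACStmt

universe u

/-- (B): abelian subgroups of equal order are conjugate -/
def PropB (G : Type u) [Group G] : Prop :=
  ∀ A B : Subgroup G, IsMulCommutative ↥A → IsMulCommutative ↥B → Nat.card ↥A = Nat.card ↥B →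
    ∃ g : G, B = A.map (MulAut.conj g).toMonoidHom

/-- [TRANSFER] (B) is invariant under isomorphism. -/
def Transfer : Prop :=
  ∀ (G H : Type u) [Group G] [Group H], (G ≃* H) → PropB G → PropB H

/-- [LIFTCRIT] if every abelian `A ≤ G ⧸ N` has an abelian lift `A₀` (`A₀ N / N = A`) whose order
depends only on `#A`, then `G ⧸ N` has (B).  (`B₀ = g A₀ g⁻¹` ⟹ `B = ḡ A ḡ⁻¹`: `Subgroup.map_map`.) -/
def LiftCrit : Prop :=
  ∀ (G : Type u) [Group G] (N : Subgroup G) [N.Normal], PropB G →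
    (∃ f : ℕ → ℕ, ∀ A : Subgroup (G ⧸ N), IsMulCommutative ↥A →
      ∃ A₀ : Subgroup G, IsMulCommutative ↥A₀ ∧ A₀.map (QuotientGroup.mk' N) = A ∧
        Nat.card ↥A₀ = f (Nat.card ↥A)) → PropB (G ⧸ N)

/-- [SZLIFT] Schur–Zassenhaus lift.  `A₁ = A.comap mk`; `N.subgroupOf A₁` is normal in `↥A₁` with
order `#N` and index `#A` coprime: `Subgroup.exists_right_complement'_of_coprime` gives `H'`;
`A₀ = H'.map A₁.subtype`: `A₀ ⊓ N = ⊥`, `A₀ N = A₁`, so `mk` maps `A₀` bijectively onto `A`;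
`A₀` abelian: `a b (b a)⁻¹ ∈ N ⊓ A₀`. -/
def SZLift : Prop :=
  ∀ (G : Type u) [Group G] [Finite G] (N : Subgroup G) [N.Normal] (A : Subgroup (G ⧸ N)),
    IsMulCommutative ↥A → Nat.Coprime (Nat.card ↥N) (Nat.card ↥A) →
      ∃ A₀ : Subgroup G, IsMulCommutative ↥A₀ ∧ A₀.map (QuotientGroup.mk' N) = A ∧
        Nat.card ↥A₀ = Nat.card ↥A

/-- [PREIM] the preimage `A₁ = A.comap mk` of an abelian `A ≤ G ⧸ N`. -/
def Preim : Prop :=
  ∀ (G : Type u) [Group G] [Finite G] (N : Subgroup G) [N.Normal] (A : Subgroup (G ⧸ N)),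
    IsMulCommutative ↥A →
      N ≤ A.comap (QuotientGroup.mk' N) ∧
      (A.comap (QuotientGroup.mk' N)).map (QuotientGroup.mk' N) = A ∧
      Nat.card ↥(A.comap (QuotientGroup.mk' N)) = Nat.card ↥N * Nat.card ↥A ∧
      ∀ a ∈ A.comap (QuotientGroup.mk' N), ∀ b ∈ A.comap (QuotientGroup.mk' N),
        a * b * a⁻¹ * b⁻¹ ∈ N

/-- [KZERO] a nontrivial normal `r`-subgroup inside `M`
(`Cfsg.Agent.Lib.Helper72.CoprimeHall.exists_normal_pgroup`; `↥M` solvable: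
`solvable_of_solvable_injective M.subtype_injective`). -/
def KZero : Prop :=
  ∀ (G : Type u) [Group G] [Finite G], Group.IsSolvable G → ∀ M : Subgroup G, M.Normal → M ≠ ⊥ →
    ∃ (r : ℕ) (N₀ : Subgroup G), r.Prime ∧ N₀.Normal ∧ IsPGroup r ↥N₀ ∧ N₀ ≠ ⊥ ∧ N₀ ≤ M

/-- [EXPSYL] case (E).  `y ∈ N₀` of order `r` (Cauchy).  For `x ∈ R`, `x ≠ 1`: `orderOf x = r`,
`zpowers x = (zpowers y).map (conj g) ≤ N₀` by (B), so `R ≤ N₀`; `N₀` is an `r`-group containing a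
Sylow `r`-subgroup, so `#N₀ = #R` and the index is prime to `r`. -/
def ExpSyl : Prop :=
  ∀ (G : Type u) [Group G] [Finite G], PropB G → ∀ (r : ℕ) [Fact r.Prime] (R : Sylow r G)
    (N₀ : Subgroup G), N₀.Normal → IsPGroup r ↥N₀ → N₀ ≠ ⊥ →
    (∀ x ∈ (R : Subgroup G), x ^ r = 1) → Nat.Coprime (Nat.card ↥N₀) N₀.index

/-- [CASEE] (from `ExpSyl`, `SZLift`, `LiftCrit`)  `#A ∣ #(G ⧸ N₀) = N₀.index`, so `SZLift`
applies to every abelian `A`; `LiftCrit` with `f = id`. -/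
def CaseE : Prop :=
  ∀ (G : Type u) [Group G] [Finite G], PropB G → ∀ (r : ℕ) [Fact r.Prime] (R : Sylow r G)
    (N₀ : Subgroup G) [N₀.Normal], IsPGroup r ↥N₀ → N₀ ≠ ⊥ →
    (∀ x ∈ (R : Subgroup G), x ^ r = 1) → PropB (G ⧸ N₀)

/-- [SYLUNIQ] case (U).  `x ∈ R` with `x ^ r ≠ 1` has order `r ^ k`, `k ≥ 2`, so `R` has a cyclic
subgroup `C₂` of order `r²`.  `Z₀ ≤ Z(R)` of order `r` (`IsPGroup.center_nontrivial`, Cauchy).
If `x ∈ R` has order `r` and `x ∉ Z₀`: `E = Z₀ ⊔ zpowers x` is abelian of order `r²` with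
`y ^ r = 1` for all `y ∈ E`; by (B) `E` is conjugate to `C₂`, which has an element of order `r²`. -/
def SylUniq : Prop :=
  ∀ (G : Type u) [Group G] [Finite G], PropB G → ∀ (r : ℕ) [Fact r.Prime] (R : Sylow r G),
    (∃ x ∈ (R : Subgroup G), x ^ r ≠ 1) →
      ∃ Z₀ : Subgroup G, Z₀ ≤ (R : Subgroup G) ∧ Nat.card ↥Z₀ = r ∧
        ∀ x ∈ (R : Subgroup G), orderOf x = r → x ∈ Z₀

/-- [UNIQSUB] (from `SylUniq`)  `N₀ ≤ R` (a normal `r`-subgroup lies in every Sylow `r`-subgroup);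
`y ∈ N₀` of order `r` lies in `Z₀`, so `Z₀ = zpowers y ≤ N₀`.  `x ∈ G` of order `r`:
`zpowers x = (zpowers y).map (conj g) ≤ N₀ ≤ R` by (B), so `x ∈ Z₀`.  Normal: conjugates of
elements of `Z₀` have order `r` or `1`. -/
def UniqSub : Prop :=
  ∀ (G : Type u) [Group G] [Finite G], PropB G → ∀ (r : ℕ) [Fact r.Prime] (R : Sylow r G)
    (N₀ : Subgroup G), N₀.Normal → IsPGroup r ↥N₀ → N₀ ≠ ⊥ →
    (∃ x ∈ (R : Subgroup G), x ^ r ≠ 1) →
      ∃ Z₀ : Subgroup G, Z₀.Normal ∧ Nat.card ↥Z₀ = r ∧ Z₀ ≤ N₀ ∧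
        ∀ x : G, orderOf x = r → x ∈ Z₀

/-- [PAB] `r` odd, `P` an `r`-group, `N` of order `r` containing all elements of order `r` and all
commutators: `P` is abelian.  Proof.  `N ⊴ P`, `N ≤ Z(P)` (a normal subgroup of order `r` of an
`r`-group is central), so commutators are central and `(x y) ^ n = x ^ n * y ^ n * c ^ (n(n-1)/2)`
(`c` the commutator, `c ^ r = 1`): `φ x = x ^ r` is a homomorphism with kernel `N`
(`x ^ r = 1`, `x ≠ 1` ⟹ `orderOf x = r`), so `#φ(P) = #P / r`; `u ^ r` is central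
(`[u ^ r, t] = [u, t] ^ r = 1`), so `Z(P)` has index `≤ r`, `P ⧸ Z(P)` is cyclic and `P` is
abelian (`commutative_of_cyclic_center_quotient`). -/
def PAb : Prop :=
  ∀ (P : Type u) [Group P] [Finite P] (r : ℕ) [Fact r.Prime], r ≠ 2 → IsPGroup r P →
    ∀ N : Subgroup P, Nat.card ↥N = r → (∀ x : P, orderOf x = r → x ∈ N) →
      (∀ a b : P, a * b * a⁻¹ * b⁻¹ ∈ N) → ∀ a b : P, a * b = b * a

/-- [SPLITA] `N` of order `r` containing all commutators, `P` a Sylow `r`-subgroup: `N ⊴ X`,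
`N ≤ P`, `P ⊴ X` (`g p g⁻¹ = (g p g⁻¹ p⁻¹) p`), Schur–Zassenhaus complement `H`; `H` is abelian
(`h k h⁻¹ k⁻¹ ∈ N ⊓ H = ⊥`, coprime orders). -/
def SplitA : Prop :=
  ∀ (X : Type u) [Group X] [Finite X] (r : ℕ) [Fact r.Prime] (N : Subgroup X),
    Nat.card ↥N = r → (∀ a b : X, a * b * a⁻¹ * b⁻¹ ∈ N) → ∀ P : Sylow r X,
      ∃ H : Subgroup X, Nat.Coprime (Nat.card ↥H) r ∧ (∀ h ∈ H, ∀ k ∈ H, h * k = k * h) ∧
        Nat.card ↥(P : Subgroup X) * Nat.card ↥H = Nat.card X ∧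
        ∀ x : X, ∃ p ∈ (P : Subgroup X), ∃ h ∈ H, x = p * h

/-- [SPLITB] elements `h` of order prime to `r` centralize `P`.  Proof.  `#P ≥ r²` and the elements
of order `r` of `P` lie in `N` (`r` elements), so some `y ∈ P` has `y ^ r ≠ 1`; a power `w` of `y`
has order `r²`; `w ^ r` has order `r`, so `N = zpowers (w ^ r)`.  `m = h w h⁻¹ w⁻¹ ∈ N` commutes
with `w`, so `h w ^ r h⁻¹ = (m w) ^ r = w ^ r`: `h` centralizes `N`.  For `x ∈ P`: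
`m' = h x h⁻¹ x⁻¹ ∈ N` is fixed by `h`, so `h ^ k x h ^ (-k) = m' ^ k x`; `k = orderOf h` gives
`m' ^ k = 1`, and `m' ^ r = 1`, so `m' = 1`. -/
def SplitB : Prop :=
  ∀ (X : Type u) [Group X] [Finite X] (r : ℕ) [Fact r.Prime] (N : Subgroup X),
    Nat.card ↥N = r → (∀ x : X, orderOf x = r → x ∈ N) → (∀ a b : X, a * b * a⁻¹ * b⁻¹ ∈ N) →
    r * r ∣ Nat.card X → ∀ P : Sylow r X, ∀ h : X, Nat.Coprime (orderOf h) r →
      ∀ x ∈ (P : Subgroup X), h * x = x * h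

/-- [ABODD] (from `SplitA`, `SplitB`, `PAb`)  `P` a Sylow `r`-subgroup, `H` from `SplitA`;
elements of `H` have order prime to `r`, so centralize `P` (`SplitB`); `P` is abelian by `PAb`
for the group `↥P` and `N.subgroupOf P`; `X = P H`. -/
def AbOdd : Prop :=
  ∀ (X : Type u) [Group X] [Finite X] (r : ℕ) [Fact r.Prime], r ≠ 2 → ∀ N : Subgroup X,
    Nat.card ↥N = r → (∀ x : X, orderOf x = r → x ∈ N) → (∀ a b : X, a * b * a⁻¹ * b⁻¹ ∈ N) →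
    r * r ∣ Nat.card X → ∀ a b : X, a * b = b * a

/-- [ABODDSUB] (from `AbOdd`, for the group `↥A₁` and `Z₀.subgroupOf A₁`) -/
def AbOddSub : Prop :=
  ∀ (G : Type u) [Group G] [Finite G] (r : ℕ) [Fact r.Prime], r ≠ 2 → ∀ Z₀ A₁ : Subgroup G,
    Nat.card ↥Z₀ = r → Z₀ ≤ A₁ → (∀ x : G, orderOf x = r → x ∈ Z₀) →
    (∀ a ∈ A₁, ∀ b ∈ A₁, a * b * a⁻¹ * b⁻¹ ∈ Z₀) → r * r ∣ Nat.card ↥A₁ →
      ∀ a ∈ A₁, ∀ b ∈ A₁, a * b = b * a

/-- [QUOTODD] (from `Preim`, `SZLift`, `AbOddSub`, `LiftCrit`)  `LiftCrit` with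
`f n = if r ∣ n then r * n else n`: if `r ∤ #A` use `SZLift` (`#Z₀ = r`); if `r ∣ #A` the preimage
`A₁` (`Preim`: `#A₁ = r * #A`) is abelian by `AbOddSub`, take `A₀ = A₁`. -/
def QuotOdd : Prop :=
  ∀ (G : Type u) [Group G] [Finite G], PropB G → ∀ (r : ℕ) [Fact r.Prime], r ≠ 2 →
    ∀ (Z₀ : Subgroup G) [Z₀.Normal], Nat.card ↥Z₀ = r → (∀ x : G, orderOf x = r → x ∈ Z₀) →
      PropB (G ⧸ Z₀)

/-- [CYCCHAIN] commuting elements of a 2-group with a unique involution `z`: one is a power of the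
other.  Proof.  Say `orderOf c ≤ orderOf x`; suppose `c ∉ zpowers x`; take `j` minimal with
`c ^ 2 ^ j ∈ zpowers x`, `c' = c ^ 2 ^ (j - 1) ∉ zpowers x`, `c' ^ 2 = x ^ m`;
`orderOf (c' ^ 2) < orderOf x`, so `m = 2 m'` is even; `u = c' * x ^ (-m')` has `u ^ 2 = 1`, so
`u = 1` or `u = z ∈ zpowers x` (`x ≠ 1`): `c' ∈ zpowers x`, contradiction. -/
def CycChain : Prop :=
  ∀ (P : Type u) [Group P] [Finite P], IsPGroup 2 P → ∀ z : P, z ≠ 1 →
    (∀ x : P, x ^ 2 = 1 → x = 1 ∨ x = z) → ∀ c x : P, c * x = x * c →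
      c ∈ Subgroup.zpowers x ∨ x ∈ Subgroup.zpowers c

/-- [P2CENT] (from `CycChain`)  2-group `P`, unique involution `z`, commutators in `{1, z}`,
`x y ≠ y x`: an element `c` commuting with `x` and `y` is `1` or `z`, and `x ^ 2 = z = y ^ 2`.
Proof.  `z` is central, `x y = z y x`, `x ^ 2`, `y ^ 2`, `(x y) ^ 2 = z x ^ 2 y ^ 2` are central.
`C = {c | c x = x c ∧ c y = y c}`.  For `c ∈ C`: `x ∉ zpowers c` (else `x y = y x`), so
`c = x ^ a` (`CycChain`) with `a` even (else `x ∈ zpowers c`): `C = zpowers (x ^ 2)`; likewise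
`C = zpowers (y ^ 2) = zpowers ((x y) ^ 2)`.  `C` cyclic of order `2 ^ e` generated by `g = x ^ 2`,
`y ^ 2 = g ^ b` (`b` odd), `z = g ^ 2 ^ (e - 1)`, `(x y) ^ 2 = g ^ (2 ^ (e - 1) + 1 + b)` is a
generator, so `2 ^ (e - 1)` is odd: `e = 1`, `C = {1, z}`, `x ^ 2 = z = y ^ 2`. -/
def P2Cent : Prop :=
  ∀ (P : Type u) [Group P] [Finite P], IsPGroup 2 P → ∀ z : P, z ≠ 1 →
    (∀ x : P, x ^ 2 = 1 → x = 1 ∨ x = z) →
    (∀ a b : P, a * b * a⁻¹ * b⁻¹ = 1 ∨ a * b * a⁻¹ * b⁻¹ = z) →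
    ∀ x y : P, x * y ≠ y * x → ∀ c : P, c * x = x * c → c * y = y * c → c = 1 ∨ c = z

/-- [P2STRUCT] (from `P2Cent`)  such a nonabelian `P` has order 8.  Proof.  `x y ≠ y x`.  For
`g ∈ P` choose `α, β ∈ {0, 1}` with `g' = g * x ^ α * y ^ β` commuting with `x` and `y`
(commutators are central of order `≤ 2`, `[g y, x] = [g, x] z`, `[g x, y] = [g, y] z`), so
`g' ∈ {1, z}` and `g ∈ {1, z} * {y ^ -β * x ^ -α}`: `#P ≤ 8`; `#P` is a power of 2 and groups of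
order `≤ 4` are abelian. -/
def P2Struct : Prop :=
  ∀ (P : Type u) [Group P] [Finite P], IsPGroup 2 P → ∀ z : P, z ≠ 1 →
    (∀ x : P, x ^ 2 = 1 → x = 1 ∨ x = z) →
    (∀ a b : P, a * b * a⁻¹ * b⁻¹ = 1 ∨ a * b * a⁻¹ * b⁻¹ = z) →
    (∃ a b : P, a * b ≠ b * a) → Nat.card P = 8

/-- [TWOTYPE] (from `SplitA`, `SplitB`, `P2Struct`, all with `r = 2`)  `P` Sylow 2, `H` from
`SplitA` (odd order, centralizes `P` by `SplitB`); `P` abelian ⟹ `X` abelian; else `P2Struct` for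
`↥P` (`z` the generator of `N ≤ P`). -/
def TwoType : Prop :=
  ∀ (X : Type u) [Group X] [Finite X] (N : Subgroup X), Nat.card ↥N = 2 →
    (∀ x : X, orderOf x = 2 → x ∈ N) → (∀ a b : X, a * b * a⁻¹ * b⁻¹ ∈ N) → 4 ∣ Nat.card X →
      (∀ a b : X, a * b = b * a) ∨
      ∃ P H : Subgroup X, Nat.card ↥P = 8 ∧ (∃ a ∈ P, ∃ b ∈ P, a * b ≠ b * a) ∧
        Odd (Nat.card ↥H) ∧ (∀ h ∈ H, ∀ k ∈ H, h * k = k * h) ∧
        (∀ h ∈ H, ∀ x ∈ P, h * x = x * h) ∧ (∀ x : X, ∃ p ∈ P, ∃ h ∈ H, x = p * h) ∧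
        Nat.card X = 8 * Nat.card ↥H

/-- [TWOTYPESUB] (from `TwoType`, for the group `↥A₁` and `Z₀.subgroupOf A₁`; map `P`, `H` by
`A₁.subtype`) -/
def TwoTypeSub : Prop :=
  ∀ (G : Type u) [Group G] [Finite G] (Z₀ A₁ : Subgroup G), Nat.card ↥Z₀ = 2 → Z₀ ≤ A₁ →
    (∀ x : G, orderOf x = 2 → x ∈ Z₀) → (∀ a ∈ A₁, ∀ b ∈ A₁, a * b * a⁻¹ * b⁻¹ ∈ Z₀) →
    4 ∣ Nat.card ↥A₁ →
      (∀ a ∈ A₁, ∀ b ∈ A₁, a * b = b * a) ∨
      ∃ P H : Subgroup G, P ≤ A₁ ∧ H ≤ A₁ ∧ Nat.card ↥P = 8 ∧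
        (∃ a ∈ P, ∃ b ∈ P, a * b ≠ b * a) ∧ Odd (Nat.card ↥H) ∧
        (∀ h ∈ H, ∀ k ∈ H, h * k = k * h) ∧ (∀ h ∈ H, ∀ x ∈ P, h * x = x * h) ∧
        P ⊔ H = A₁ ∧ Nat.card ↥A₁ = 8 * Nat.card ↥H

/-- [AB8] an abelian subgroup of order divisible by 8 in a group with at most one involution has
an element of order 8.  (`T` = Sylow 2-subgroup of `B₁`, `#T ≥ 8`; squaring is a homomorphism of
`T` with kernel of order `≤ 2`, so at most 4 elements have `x ^ 4 = 1`; some `x ∈ T` has order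
`2 ^ j ≥ 8`, and `x ^ 2 ^ (j - 3)` has order 8.) -/
def Ab8 : Prop :=
  ∀ (G : Type u) [Group G] [Finite G] (B₁ : Subgroup G), (∀ a ∈ B₁, ∀ b ∈ B₁, a * b = b * a) →
    (∀ x y : G, orderOf x = 2 → orderOf y = 2 → x = y) → 8 ∣ Nat.card ↥B₁ →
      ∃ x ∈ B₁, orderOf x = 8

/-- [ODDCORE] `K` maximal among normal subgroups of odd order: for `Y ⊴ G ⧸ K` of odd order,
`Y.comap mk` is normal of odd order `#K * #Y` and contains `K`, so equals `K` and `Y = ⊥`. -/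
def OddCore : Prop :=
  ∀ (G : Type u) [Group G] [Finite G], ∃ (K : Subgroup G) (_ : K.Normal), Odd (Nat.card ↥K) ∧
    ∀ Y : Subgroup (G ⧸ K), Y.Normal → Odd (Nat.card ↥Y) → Y = ⊥

/-- [LIFT2] lifting elements of 2-power order modulo a normal subgroup of odd order.  (`g₀ ↦ y`,
`g₀ ^ 2 ^ k ∈ K`, so `orderOf g₀ = 2 ^ k * m`, `m` odd; `g = g₀ ^ (m * t)` with
`m * t ≡ 1 mod 2 ^ k`.) -/
def Lift2 : Prop :=
  ∀ (G : Type u) [Group G] [Finite G] (K : Subgroup G) [K.Normal], Odd (Nat.card ↥K) →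
    ∀ (y : G ⧸ K) (k : ℕ), orderOf y = 2 ^ k →
      ∃ g : G, orderOf g = 2 ^ k ∧ QuotientGroup.mk' K g = y

/-- [HATB] (from `Lift2`)  in `G ⧸ K` (`K` odd): cyclic subgroups of order 4 are conjugate (lift
generators to elements of order 4, (B) for their `zpowers`, map by `mk`), and there is at most
one involution if `G` has at most one. -/
def HatB : Prop :=
  ∀ (G : Type u) [Group G] [Finite G], PropB G → ∀ (K : Subgroup G) [K.Normal],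
    Odd (Nat.card ↥K) →
      (∀ c d : G ⧸ K, orderOf c = 4 → orderOf d = 4 →
        ∃ g : G ⧸ K, Subgroup.zpowers d = (Subgroup.zpowers c).map (MulAut.conj g).toMonoidHom) ∧
      ((∀ x y : G, orderOf x = 2 → orderOf y = 2 → x = y) →
        ∀ x y : G ⧸ K, orderOf x = 2 → orderOf y = 2 → x = y)

/-- [EXV] `Q` solvable without nontrivial normal subgroups of odd order, `z` its unique
involution, `Q ≠ {1, z}`: a normal 2-subgroup `V ⊋ {1, z}` with `V / ⟨z⟩` of exponent 2.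
Proof.  `Z = zpowers z ⊴ Q`, `Q ⧸ Z` nontrivial solvable: a nontrivial normal `s`-subgroup `Ñ`
(`Cfsg.Agent.S0019.exists_normal_pgroup`).  `s` odd is impossible: the preimage `Y` of `Ñ` has
order `2 * s ^ k` and its elements of odd order form a subgroup `S` of index 2 (Sylow `s`-subgroup,
normal as `Z` is central), characteristic in `Y`, normal in `Q`, odd order, `≠ ⊥`.  So `s = 2`;
`Ṽ = {x ∈ Ñ | x ^ 2 = 1 ∧ ∀ y ∈ Ñ, x * y = y * x}` is a normal subgroup of `Q ⧸ Z`, `≠ ⊥`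
(`IsPGroup.center_nontrivial`); `V = Ṽ.comap mk`. -/
def ExV : Prop :=
  ∀ (Q : Type u) [Group Q] [Finite Q], Group.IsSolvable Q →
    (∀ Y : Subgroup Q, Y.Normal → Odd (Nat.card ↥Y) → Y = ⊥) →
    ∀ z : Q, orderOf z = 2 → (∀ x : Q, orderOf x = 2 → x = z) → (∃ x : Q, x ≠ 1 ∧ x ≠ z) →
      ∃ V : Subgroup Q, V.Normal ∧ IsPGroup 2 ↥V ∧ (∃ v ∈ V, v ≠ 1 ∧ v ≠ z) ∧
        ∀ v ∈ V, v ^ 2 = 1 ∨ v ^ 2 = z

/-- [VSMALL] (from `P2Struct`)  a 2-group with unique involution `z` and all squares in `{1, z}`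
has order `≤ 8`.  (`z` central; `a⁻¹ = a * (a ^ 2)⁻¹`, so `a b a⁻¹ b⁻¹ = (a b) ^ 2 * ε ∈ {1, z}`.
Abelian: squaring is a homomorphism into `{1, z}` with kernel `{1, z}`, `#V ≤ 4`.  Else
`P2Struct`.) -/
def VSmall : Prop :=
  ∀ (V : Type u) [Group V] [Finite V], IsPGroup 2 V → ∀ z : V, z ≠ 1 →
    (∀ x : V, x ^ 2 = 1 → x = 1 ∨ x = z) → (∀ v : V, v ^ 2 = 1 ∨ v ^ 2 = z) → Nat.card V ≤ 8

/-- [VALL4] a normal 2-subgroup `V ⊋ {1, z}` contains every `x` with `x ^ 4 = 1` when cyclic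
subgroups of order 4 are conjugate.  (`v ∈ V`, `v ≠ 1, z` has order `2 ^ k ≥ 4`; `v₀ = v ^ 2 ^ (k-2)`
has order 4, `v₀ ^ 2 = z`; `x` of order 4: `zpowers x = (zpowers v₀).map (conj g) ≤ V`.) -/
def VAll4 : Prop :=
  ∀ (Q : Type u) [Group Q] [Finite Q] (V : Subgroup Q), V.Normal →
    (∀ c d : Q, orderOf c = 4 → orderOf d = 4 →
      ∃ g : Q, Subgroup.zpowers d = (Subgroup.zpowers c).map (MulAut.conj g).toMonoidHom) →
    ∀ z : Q, orderOf z = 2 → (∀ x : Q, orderOf x = 2 → x = z) → IsPGroup 2 ↥V →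
    (∃ v ∈ V, v ≠ 1 ∧ v ≠ z) → ∀ x : Q, x ^ 4 = 1 → x ∈ V

/-- [VCORE] (from `OddCore`, `HatB`, `ExV`, `VSmall`, `VAll4`)  `K` from `OddCore`, `Q = G ⧸ K`
(solvable).  `P₁ ⊓ K = ⊥` (coprime orders), so `P̂₁ = P₁.map mk` has 8 elements; `ẑ` = image of an
involution of `P₁`, the unique involution of `Q` (`HatB`).  `V` from `ExV`; `#V ≤ 8` (`VSmall` for
`↥V`); `V` contains all `x` with `x ^ 4 = 1` (`VAll4`), in particular `P̂₁` (a nonabelian group of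
order 8 has no element of order 8).  So `V = P̂₁`, nonabelian of order 8. -/
def VCore : Prop :=
  ∀ (G : Type u) [Group G] [Finite G], Group.IsSolvable G → PropB G →
    (∀ x y : G, orderOf x = 2 → orderOf y = 2 → x = y) →
    ∀ P₁ : Subgroup G, Nat.card ↥P₁ = 8 → (∃ a ∈ P₁, ∃ b ∈ P₁, a * b ≠ b * a) →
      ∃ (K : Subgroup G) (_ : K.Normal), Odd (Nat.card ↥K) ∧
        (∀ x y : G ⧸ K, orderOf x = 2 → orderOf y = 2 → x = y) ∧
        ∃ V : Subgroup (G ⧸ K), V.Normal ∧ Nat.card ↥V = 8 ∧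
          (∃ a ∈ V, ∃ b ∈ V, a * b ≠ b * a) ∧ (∀ x : G ⧸ K, x ^ 4 = 1 → x ∈ V)

/-- [NOEIGHTHAT] `Q` with at most one involution and a normal nonabelian `V` of order 8 containing
all `x` with `x ^ 4 = 1` has no element of order 8.  Proof.  `orderOf x = 8`, `i = x ^ 2 ∈ V`,
`x ∉ V` (else `V` cyclic).  `j ∈ V`, `j ∉ zpowers i`: `orderOf j = 4`, `j ^ 2 = i ^ 2` (unique
involution), `j i j⁻¹ = i⁻¹` (`zpowers i` has index 2 in `V`, `V` nonabelian).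
`x⁻¹ j x = j * i ^ a ∈ V \ zpowers i`; conjugating twice: `i⁻¹ j i = j * i ^ 2 = j * i ^ (2 a)`, so
`a` is odd.  `(x j) ^ 2 = x ^ 2 * (x⁻¹ j x) * j = i * (j i ^ a j⁻¹) * j ^ 2 = i ^ (3 - a)`, an even
power of `i`: `(x j) ^ 4 = 1`, `x j ∈ V`, `x ∈ V`: contradiction. -/
def NoEightHat : Prop :=
  ∀ (Q : Type u) [Group Q] [Finite Q],
    (∀ x y : Q, orderOf x = 2 → orderOf y = 2 → x = y) →
    ∀ V : Subgroup Q, V.Normal → Nat.card ↥V = 8 → (∃ a ∈ V, ∃ b ∈ V, a * b ≠ b * a) →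
    (∀ x : Q, x ^ 4 = 1 → x ∈ V) → ∀ x : Q, orderOf x ≠ 8

/-- [NOEIGHT] (from `VCore`, `NoEightHat`)  `orderOf x = 8` in `G` ⟹ `orderOf (mk x) = 8` in
`G ⧸ K` (`x ^ 4` has order 2, so `x ^ 4 ∉ K`). -/
def NoEight : Prop :=
  ∀ (G : Type u) [Group G] [Finite G], Group.IsSolvable G → PropB G →
    (∀ x y : G, orderOf x = 2 → orderOf y = 2 → x = y) →
    ∀ P₁ : Subgroup G, Nat.card ↥P₁ = 8 → (∃ a ∈ P₁, ∃ b ∈ P₁, a * b ≠ b * a) →
      ∀ x : G, orderOf x ≠ 8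

/-- [QNORMAL] (from `VCore`)  `X = V.comap mk`: normal, `#X = #K * 8`; a nonabelian `P` of order 8
has `x ^ 4 = 1` for all `x ∈ P`, so `P ≤ X`. -/
def QNormal : Prop :=
  ∀ (G : Type u) [Group G] [Finite G], Group.IsSolvable G → PropB G →
    (∀ x y : G, orderOf x = 2 → orderOf y = 2 → x = y) →
    ∀ P₁ : Subgroup G, Nat.card ↥P₁ = 8 → (∃ a ∈ P₁, ∃ b ∈ P₁, a * b ≠ b * a) →
      ∃ X : Subgroup G, X.Normal ∧ (∃ m : ℕ, Odd m ∧ Nat.card ↥X = 8 * m) ∧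
        ∀ P : Subgroup G, Nat.card ↥P = 8 → (∃ a ∈ P, ∃ b ∈ P, a * b ≠ b * a) → P ≤ X

/-- [TYPEII] `P₁ × H₁` and `P₂ × H₂` are conjugate.  Proof.  (B): `H₂ = g H₁ g⁻¹`;
`P₁' = g P₁ g⁻¹ ≤ X` centralizes `H₂`; `C = X ⊓ centralizer H₂` has order `8 * odd` and contains
`P₁'`, `P₂` of order 8: Sylow 2-subgroups of `C`, so `P₂ = c P₁' c⁻¹` with `c ∈ C`; `c g` works
(`Subgroup.map_sup`). -/
def TypeII : Prop :=
  ∀ (G : Type u) [Group G] [Finite G], PropB G → ∀ X : Subgroup G, X.Normal →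
    (∃ m : ℕ, Odd m ∧ Nat.card ↥X = 8 * m) →
    ∀ P₁ P₂ H₁ H₂ : Subgroup G, P₁ ≤ X → P₂ ≤ X → Nat.card ↥P₁ = 8 → Nat.card ↥P₂ = 8 →
      (∀ h ∈ H₁, ∀ k ∈ H₁, h * k = k * h) → (∀ h ∈ H₂, ∀ k ∈ H₂, h * k = k * h) →
      Nat.card ↥H₁ = Nat.card ↥H₂ →
      (∀ h ∈ H₁, ∀ x ∈ P₁, h * x = x * h) → (∀ h ∈ H₂, ∀ x ∈ P₂, h * x = x * h) →
        ∃ g : G, P₂ ⊔ H₂ = (P₁ ⊔ H₁).map (MulAut.conj g).toMonoidHom

/-- [QUOTTWO] (from `Preim`, `SZLift`, `TwoTypeSub`, `NoEight`, `QNormal`, `TypeII`, `Ab8`)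
`A, B ≤ G ⧸ Z₀` abelian of order `n`.  `n` odd: `SZLift` twice, (B), map by `mk`.  `n` even:
preimages `A₁, B₁` (`Preim`, order `2 n`), `TwoTypeSub` for both.  Both abelian: (B).  One abelian
(order `8 * odd`), the other `P ⊔ H`: `Ab8` gives an element of order 8, contradicting `NoEight`
(`P` nonabelian of order 8; `G` has at most one involution as `#Z₀ = 2`).  Both of type
`P ⊔ H`: `#H₁ = #H₂`, `X` from `QNormal`, `TypeII`. -/
def QuotTwo : Prop :=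
  ∀ (G : Type u) [Group G] [Finite G], Group.IsSolvable G → PropB G →
    ∀ (Z₀ : Subgroup G) [Z₀.Normal], Nat.card ↥Z₀ = 2 → (∀ x : G, orderOf x = 2 → x ∈ Z₀) →
      PropB (G ⧸ Z₀)

/-- [KEYSTEP] (from `KZero`, `CaseE`, `UniqSub`, `QuotOdd`, `QuotTwo`)  `r`, `N₀` from `KZero`,
`R` a Sylow `r`-subgroup.  All `x ∈ R` have `x ^ r = 1`: `N = N₀`, `CaseE`.  Else `Z₀` from
`UniqSub`, `N = Z₀` (`≠ ⊥`, `≤ N₀ ≤ M`), `QuotTwo` if `r = 2`, `QuotOdd` otherwise. -/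
def KeyStep : Prop :=
  ∀ (G : Type u) [Group G] [Finite G], Group.IsSolvable G → PropB G → ∀ M : Subgroup G,
    M.Normal → M ≠ ⊥ → ∃ (N : Subgroup G) (_ : N.Normal), N ≠ ⊥ ∧ N ≤ M ∧ PropB (G ⧸ N)

/-- [INDUCT] (from `KeyStep`, `Transfer`)  the statement S3912.  Strong induction on `Nat.card G`.
`M = ⊥`: `QuotientGroup.quotientBot`, `Transfer`.  Else `N` from `KeyStep`; `G ⧸ N` is solvable,
has (B) and smaller order; induction for `M.map (mk' N)`;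
`QuotientGroup.quotientQuotientEquivQuotient`, `Transfer`. -/
def Goal : Prop :=
  ∀ (G : Type u) [Group G] [Finite G], PropB G → Group.IsSolvable G →
    ∀ (M : Subgroup G) [M.Normal], PropB (G ⧸ M)

end Cfsg.Agent.Lib.Helper25.ACStmt
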