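import Mathlib
import Cfsg.Agent.Lib.Helper25.ACStmt

set_option autoImplicit false

/-!
# Piece statements for S3911

(B): abelian subgroups of equal order are conjugate (`ACStmt.PropB`).  Claim: `G` finite with (B),
`M ⊴ G` of odd order  ⟹  `G ⧸ M` has (B).  (No solvability of `G`, no Feit–Thompson.)

Plan.  Strong induction on `#M` over all `G` (INDUCT11): it suffices to find `⊥ ≠ N ≤ M`, `N ⊴ G`
with (B) for `G ⧸ N` (KEYODD).  If `M` is not a minimal normal subgroup, any `⊥ < N < M` works by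
induction.  Let `M` be minimal normal (MINCASE).
* `M` a `p`-group (`p` odd): the landed S3912 pieces `CaseE`, `UniqSub`, `QuotOdd` (PGROUPCASE).
* otherwise `#M` and `[G : M]` are coprime (MINHALL) and Schur–Zassenhaus lifts every abelian
  subgroup of `G ⧸ M` (COPCASE).  Coprimality: for `p ∣ #M` a Sylow `p`-subgroup `P` of `G` lies in
  `M` (SYLIN): if `P` has exponent `p`, all subgroups of order `p` are conjugate into `M` (EXPIN);
  else `P` has a unique subgroup of order `p` (landed `SylUniq`), so `P` is cyclic (CYCODD, via the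
  landed `PAb`); if `P ⊄ M`, Burnside's transfer theorem in `M P` (BURNA, BURN) gives a normal
  `p`-complement `K` of `M`, normal in `G` (PCOMPL); minimality: `K = ⊥`, `M` is a `p`-group.
-/

namespace Cfsg.Agent.Lib.Helper25.ACOddStmt

open Cfsg.Agent.Lib.Helper25.ACStmt

universe u

/-- [EXPIN] `y ∈ M` of order `p` (Cauchy); `x ∈ P`, `x ≠ 1` has order `p`, and
`zpowers x = (zpowers y).map (conj g) ≤ M` by (B). -/
def ExpIn : Prop :=
  ∀ (G : Type u) [Group G] [Finite G], PropB G → ∀ M : Subgroup G, M.Normal →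
    ∀ (p : ℕ) [Fact p.Prime], p ∣ Nat.card ↥M → ∀ P : Sylow p G,
      (∀ x ∈ (P : Subgroup G), x ^ p = 1) → (P : Subgroup G) ≤ M

/-- [ABCYC] an abelian `p`-group with a unique subgroup `N` of order `p` is cyclic.  Proof.  `a`
of maximal order; suppose `c ∉ zpowers a`; `j` minimal with `c ^ p ^ j ∈ zpowers a`,
`c' = c ^ p ^ (j - 1) ∉ zpowers a`, `c' ^ p = a ^ k`; `orderOf (c' ^ p) < orderOf a`, so `p ∣ k`,
`k = p k'`; `u = c' * a ^ (-k')` has `u ^ p = 1`, so `u ∈ N ≤ zpowers a` (a power of `a` has order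
`p`, it generates `N`): `c' ∈ zpowers a`, contradiction. -/
def AbCyc : Prop :=
  ∀ (P : Type u) [Group P] [Finite P] (p : ℕ) [Fact p.Prime], IsPGroup p P →
    (∀ a b : P, a * b = b * a) →
    ∀ N : Subgroup P, Nat.card ↥N = p → (∀ x : P, orderOf x = p → x ∈ N) → IsCyclic P

/-- [CYCSTEP] `p` odd, `P` a `p`-group with unique subgroup `N` of order `p`, all proper
subgroups cyclic: all commutators lie in `N`.  Proof.  `P` cyclic: trivial.  Else `a` of maximal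
order `p ^ m`, `A = zpowers a ≠ ⊤`; `B ≥ A` of order `p ^ (m + 1)`
(`Sylow.exists_subgroup_card_pow_succ`) is not cyclic, so `B = ⊤`: `A` has index `p`, `A ⊴ P`.
`b ∉ A`: `b ^ p = a ^ k ∈ A` and `orderOf b ≤ p ^ m` give `p ∣ k`.  `B₂ = closure {a ^ p, b}`
`= {a ^ (p i) * b ^ j}` (`zpowers (a ^ p) ⊴ P`) does not contain `a`, so it is cyclic, and `b`
commutes with `a ^ p`: `a ^ p` is central (`P = closure {a, b}`).  `P ⧸ zpowers (a ^ p)` has order
`p²`, so is abelian: `c = a b a⁻¹ b⁻¹ ∈ zpowers (a ^ p)` is central; `a ^ p * b = c ^ p * b * a ^ p`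
gives `c ^ p = 1`, so `c ∈ N`.  `N ⊴ P` and in `P ⧸ N` the images of `a`, `b` commute and
generate: `P ⧸ N` is abelian. -/
def CycStep : Prop :=
  ∀ (P : Type u) [Group P] [Finite P] (p : ℕ) [Fact p.Prime], p ≠ 2 → IsPGroup p P →
    ∀ N : Subgroup P, Nat.card ↥N = p → (∀ x : P, orderOf x = p → x ∈ N) →
    (∀ H : Subgroup P, H ≠ ⊤ → IsCyclic ↥H) → ∀ a b : P, a * b * a⁻¹ * b⁻¹ ∈ N

/-- [CYCODD] (from `AbCyc`, `CycStep`, `PAb`)  strong induction on `Nat.card P`: a proper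
subgroup `H ≠ ⊥` contains an element of order `p`, so `N ≤ H` and `N.subgroupOf H` is its unique
subgroup of order `p`: `↥H` is cyclic by induction.  `CycStep`, then `PAb` (abelian), `AbCyc`. -/
def CycOdd : Prop :=
  ∀ (P : Type u) [Group P] [Finite P] (p : ℕ) [Fact p.Prime], p ≠ 2 → IsPGroup p P →
    ∀ N : Subgroup P, Nat.card ↥N = p → (∀ x : P, orderOf x = p → x ∈ N) → IsCyclic P

/-- [BURNA] `G = M P`, `P = zpowers x` a cyclic Sylow `p`-subgroup not inside `M ⊴ G`: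
`N_G(P) = C_G(P)`.  Proof.  `G ⧸ M` is a cyclic `p`-group `≠ 1` generated by `x̄`; `G₂` = preimage
of `zpowers (x̄ ^ p)`: normal of index `p`, `x ∉ G₂`.  For `g ∈ N(P)`: `g x g⁻¹ = x ^ a`,
`x ^ (a - 1) = g x g⁻¹ x⁻¹ ∈ G₂` (`G ⧸ G₂` abelian), so `p ∣ a - 1`;
`dvd_sub_pow_of_dvd_sub`: `p ^ m ∣ a ^ p ^ (m - 1) - 1` (`#P = p ^ m`), so `g ^ p ^ (m - 1)`
centralizes `x`.  `orderOf g = p ^ s * u`: `h = g ^ p ^ s ∈ N(P)` has order `u` prime to `p` and
`h ^ p ^ (m - 1) ∈ C(P)`, so `h ∈ C(P)`; `g ^ u` is a `p`-element of `N(P)`, so lies in `P`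
(`P ⊔ zpowers (g ^ u)` is a `p`-group) `≤ C(P)`; `g ∈ closure {g ^ p ^ s, g ^ u}`. -/
def BurnA : Prop :=
  ∀ (G : Type u) [Group G] [Finite G] (p : ℕ) [Fact p.Prime] (P : Sylow p G),
    IsCyclic ↥(P : Subgroup G) → ∀ M : Subgroup G, M.Normal → ¬ (P : Subgroup G) ≤ M →
    M ⊔ (P : Subgroup G) = ⊤ →
      Subgroup.normalizer ((P : Subgroup G) : Set G) ≤
        Subgroup.centralizer ((P : Subgroup G) : Set G)

/-- [BURN] (from `BurnA`)  `K = (MonoidHom.transferSylow P hP).ker`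
(`MonoidHom.ker_transferSylow_isComplement'`): normal, `#K * #P = #G`; `K ≤ M`: `#K` is prime to
`p` and `G ⧸ M` is a `p`-group (`G = M P`). -/
def Burn : Prop :=
  ∀ (G : Type u) [Group G] [Finite G] (p : ℕ) [Fact p.Prime] (P : Sylow p G),
    IsCyclic ↥(P : Subgroup G) → ∀ M : Subgroup G, M.Normal → ¬ (P : Subgroup G) ≤ M →
    M ⊔ (P : Subgroup G) = ⊤ →
      ∃ K : Subgroup G, K.Normal ∧ K ≤ M ∧
        Nat.card ↥K * Nat.card ↥(P : Subgroup G) = Nat.card G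

/-- [PCOMPL] (from `Burn`, applied to the group `↥(M ⊔ P)`, `Sylow.subtype`, `M.subgroupOf _`)
`K₁` from `Burn`, `K = K₁.map (Subgroup.subtype _)`.  `K = {m ∈ M | orderOf m prime to p}` (`#K₁`
is prime to `p`; the quotient by `K₁` is a `p`-group), hence `K ⊴ G`; `[M : K]` divides `#P`. -/
def PCompl : Prop :=
  ∀ (G : Type u) [Group G] [Finite G] (p : ℕ) [Fact p.Prime] (P : Sylow p G),
    IsCyclic ↥(P : Subgroup G) → ∀ M : Subgroup G, M.Normal → ¬ (P : Subgroup G) ≤ M →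
      ∃ K : Subgroup G, K.Normal ∧ K ≤ M ∧ Nat.Coprime (Nat.card ↥K) p ∧
        ∃ j : ℕ, Nat.card ↥M = Nat.card ↥K * p ^ j

/-- [SYLIN] (from `ExpIn`, `SylUniq`, `CycOdd`, `PCompl`)  `M` minimal normal of odd order,
`p ∣ #M` (so `p ≠ 2`).  `P` of exponent `p`: `ExpIn`.  Else `Z₀` from `SylUniq`, `↥P` cyclic by
`CycOdd` (`Z₀.subgroupOf P`).  If `P ⊄ M`: `K` from `PCompl`; `K = M` is impossible (`p ∣ #M`), so
`K = ⊥` and `#M = p ^ j`. -/
def SylIn : Prop :=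
  ∀ (G : Type u) [Group G] [Finite G], PropB G → ∀ M : Subgroup G, M.Normal →
    Odd (Nat.card ↥M) → (∀ N : Subgroup G, N.Normal → N ≤ M → N = ⊥ ∨ N = M) →
    ∀ (p : ℕ) [Fact p.Prime], p ∣ Nat.card ↥M → ∀ P : Sylow p G,
      (P : Subgroup G) ≤ M ∨ IsPGroup p ↥M

/-- [MINHALL] (from `SylIn`)  if `M` is not a `p`-group for any prime `p`, then for every prime
`q ∣ #M` a Sylow `q`-subgroup `Q` of `G` lies in `M`, so `q ∤ [G : M]` (`[G : M]` divides
`[G : Q]`). -/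
def MinHall : Prop :=
  ∀ (G : Type u) [Group G] [Finite G], PropB G → ∀ M : Subgroup G, M.Normal → M ≠ ⊥ →
    Odd (Nat.card ↥M) → (∀ N : Subgroup G, N.Normal → N ≤ M → N = ⊥ ∨ N = M) →
      (∃ p : ℕ, p.Prime ∧ IsPGroup p ↥M) ∨ Nat.Coprime (Nat.card ↥M) M.index

/-- [COPCASE] (from `SZLift`, `LiftCrit`)  `#A ∣ #(G ⧸ M) = M.index`; `LiftCrit` with `f = id`. -/
def CopCase : Prop :=
  ∀ (G : Type u) [Group G] [Finite G], PropB G → ∀ (M : Subgroup G) [M.Normal],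
    Nat.Coprime (Nat.card ↥M) M.index → PropB (G ⧸ M)

/-- [PGROUPCASE] (from `CaseE`, `UniqSub`, `QuotOdd`)  `R` a Sylow `r`-subgroup.  Exponent `r`:
`N = N₀`, `CaseE`.  Else `Z₀` from `UniqSub` (`≠ ⊥`, `≤ N₀`), `QuotOdd`. -/
def PGroupCase : Prop :=
  ∀ (G : Type u) [Group G] [Finite G], PropB G → ∀ (r : ℕ) [Fact r.Prime], r ≠ 2 →
    ∀ N₀ : Subgroup G, N₀.Normal → IsPGroup r ↥N₀ → N₀ ≠ ⊥ →
      ∃ (N : Subgroup G) (_ : N.Normal), N ≠ ⊥ ∧ N ≤ N₀ ∧ PropB (G ⧸ N)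

/-- [MINCASE] (from `MinHall`, `PGroupCase`, `CopCase`)  `M` a `p`-group: `p ≠ 2` (`#M` odd,
`M ≠ ⊥`), `PGroupCase` with `N₀ = M`.  Else `N = M`, `CopCase`. -/
def MinCase : Prop :=
  ∀ (G : Type u) [Group G] [Finite G], PropB G → ∀ M : Subgroup G, M.Normal → M ≠ ⊥ →
    Odd (Nat.card ↥M) → (∀ N : Subgroup G, N.Normal → N ≤ M → N = ⊥ ∨ N = M) →
      ∃ (N : Subgroup G) (_ : N.Normal), N ≠ ⊥ ∧ N ≤ M ∧ PropB (G ⧸ N)

/-- induction hypothesis: (B) for quotients by normal subgroups of odd order `< n` -/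
def OddBelow (n : ℕ) : Prop :=
  ∀ (G : Type u) [Group G] [Finite G], PropB G → ∀ (N : Subgroup G) [N.Normal],
    Odd (Nat.card ↥N) → Nat.card ↥N < n → PropB (G ⧸ N)

/-- [KEYODD] (from `MinCase`)  if some normal `N` of `G` has `⊥ ≠ N ≤ M`, `N ≠ M`: `#N < #M`,
`#N` odd, use the induction hypothesis.  Else `M` is minimal normal: `MinCase`. -/
def KeyOdd : Prop :=
  ∀ (G : Type u) [Group G] [Finite G], PropB G → ∀ M : Subgroup G, M.Normal → M ≠ ⊥ →
    Odd (Nat.card ↥M) → OddBelow.{u} (Nat.card ↥M) →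
      ∃ (N : Subgroup G) (_ : N.Normal), N ≠ ⊥ ∧ N ≤ M ∧ PropB (G ⧸ N)

/-- [INDUCT11] (from `KeyOdd`, `Transfer`)  the statement S3911.  `∀ n, OddBelow n` by induction
on `n`: for `#N = n`: `N = ⊥`: `QuotientGroup.quotientBot`, `Transfer`; else `N'` from `KeyOdd`,
`G ⧸ N'` has (B), `N.map (mk' N')` is normal of odd order `#N / #N' < n`, induction,
`QuotientGroup.quotientQuotientEquivQuotient`, `Transfer`. -/
def Goal11 : Prop :=
  ∀ (G : Type u) [Group G] [Finite G], PropB G → ∀ (M : Subgroup G) [M.Normal],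
    Odd (Nat.card ↥M) → PropB (G ⧸ M)

end Cfsg.Agent.Lib.Helper25.ACOddStmt
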