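import Mathlib
import Cfsg.Agent.Lib.Helper25.ACStmt

set_option autoImplicit false

namespace Cfsg.Agent.Lib.Helper25.ACQUOTTWO
open Cfsg.Agent.Lib.Helper25.ACStmt

universe u

theorem finish {G : Type u} [Group G] (N : Subgroup G) [N.Normal] (A B : Subgroup (G ⧸ N))
    (A₁ B₁ : Subgroup G) (hA : A₁.map (QuotientGroup.mk' N) = A)
    (hB : B₁.map (QuotientGroup.mk' N) = B) (g : G)
    (hg : B₁ = A₁.map (MulAut.conj g).toMonoidHom) :
    ∃ g' : G ⧸ N, B = A.map (MulAut.conj g').toMonoidHom := by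
  refine ⟨QuotientGroup.mk' N g, ?_⟩
  rw [← hA, ← hB, hg, Subgroup.map_map, Subgroup.map_map]
  congr 1

theorem isMulComm_of {G : Type u} [Group G] (A : Subgroup G)
    (h : ∀ a ∈ A, ∀ b ∈ A, a * b = b * a) : IsMulCommutative ↥A :=
  ⟨⟨fun a b => Subtype.ext (h a a.2 b b.2)⟩⟩

theorem main (hPre : Preim.{u}) (hS : SZLift.{u}) (hT : TwoTypeSub.{u}) (hN : NoEight.{u})
    (hQ : QNormal.{u}) (hII : TypeII.{u}) (h8 : Ab8.{u}) : QuotTwo.{u} := by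
  intro G _ _ hsol hB Z₀ _ hZ2 hZu A B hA hB' hcard
  have hinv : ∀ x y : G, orderOf x = 2 → orderOf y = 2 → x = y := by
    intro x y hx hy
    obtain ⟨t, -, ht⟩ := (Nat.card_eq_two_iff' (1 : ↥Z₀)).mp hZ2
    have hx1 : (⟨x, hZu x hx⟩ : ↥Z₀) ≠ 1 := by
      intro h
      have h1 : x = 1 := congrArg Subtype.val h
      rw [h1, orderOf_one] at hx
      omega
    have hy1 : (⟨y, hZu y hy⟩ : ↥Z₀) ≠ 1 := by
      intro h
      have h1 : y = 1 := congrArg Subtype.val h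
      rw [h1, orderOf_one] at hy
      omega
    have h2 := (ht _ hx1).trans (ht _ hy1).symm
    exact congrArg Subtype.val h2
  by_cases hodd : Odd (Nat.card ↥A)
  · have hcopA : Nat.Coprime (Nat.card ↥Z₀) (Nat.card ↥A) := by
      rw [hZ2]; exact Nat.coprime_two_left.mpr hodd
    have hcopB : Nat.Coprime (Nat.card ↥Z₀) (Nat.card ↥B) := by
      rw [← hcard]; exact hcopA
    obtain ⟨A₀, hA₀, hA₀m, hA₀c⟩ := hS G Z₀ A hA hcopA
    obtain ⟨B₀, hB₀, hB₀m, hB₀c⟩ := hS G Z₀ B hB' hcopB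
    obtain ⟨g, hg⟩ := hB A₀ B₀ hA₀ hB₀ (by rw [hA₀c, hB₀c, hcard])
    exact finish Z₀ A B A₀ B₀ hA₀m hB₀m g hg
  · have heven : Even (Nat.card ↥A) := Nat.not_odd_iff_even.mp hodd
    obtain ⟨hZA, hAm, hAc, hAcomm⟩ := hPre G Z₀ A hA
    obtain ⟨hZB, hBm, hBc, hBcomm⟩ := hPre G Z₀ B hB'
    have hAB : Nat.card ↥(A.comap (QuotientGroup.mk' Z₀)) =
        Nat.card ↥(B.comap (QuotientGroup.mk' Z₀)) := by
      rw [hAc, hBc, hcard]
    have h4A : 4 ∣ Nat.card ↥(A.comap (QuotientGroup.mk' Z₀)) := by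
      obtain ⟨k, hk⟩ := heven
      rw [hAc, hZ2, hk]
      exact ⟨k, by ring⟩
    have h4B : 4 ∣ Nat.card ↥(B.comap (QuotientGroup.mk' Z₀)) := by
      rw [← hAB]; exact h4A
    rcases hT G Z₀ _ hZ2 hZA hZu hAcomm h4A with hAab | ⟨PA, HA, hPA, hHA, hPA8, hPAn, hHAo,
      hHAab, hHAc, hPHA, hAc8⟩
    · rcases hT G Z₀ _ hZ2 hZB hZu hBcomm h4B with hBab | ⟨PB, HB, hPB, hHB, hPB8, hPBn, hHBo,
        hHBab, hHBc, hPHB, hBc8⟩
      · obtain ⟨g, hg⟩ := hB _ _ (isMulComm_of _ hAab) (isMulComm_of _ hBab) hAB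
        exact finish Z₀ A B _ _ hAm hBm g hg
      · exfalso
        have h8A : 8 ∣ Nat.card ↥(A.comap (QuotientGroup.mk' Z₀)) := by
          rw [hAB, hBc8]; exact Dvd.intro _ rfl
        obtain ⟨x, -, hx⟩ := h8 G _ hAab hinv h8A
        exact hN G hsol hB hinv PB hPB8 hPBn x hx
    · rcases hT G Z₀ _ hZ2 hZB hZu hBcomm h4B with hBab | ⟨PB, HB, hPB, hHB, hPB8, hPBn, hHBo,
        hHBab, hHBc, hPHB, hBc8⟩
      · exfalso
        have h8B : 8 ∣ Nat.card ↥(B.comap (QuotientGroup.mk' Z₀)) := by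
          rw [← hAB, hAc8]; exact Dvd.intro _ rfl
        obtain ⟨x, -, hx⟩ := h8 G _ hBab hinv h8B
        exact hN G hsol hB hinv PA hPA8 hPAn x hx
      · obtain ⟨X, hXn, hXc, hXall⟩ := hQ G hsol hB hinv PA hPA8 hPAn
        have hHcard : Nat.card ↥HA = Nat.card ↥HB := by
          have h1 : 8 * Nat.card ↥HA = 8 * Nat.card ↥HB := by rw [← hAc8, ← hBc8, hAB]
          omega
        obtain ⟨g, hg⟩ := hII G hB X hXn hXc PA PB HA HB (hXall PA hPA8 hPAn)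
          (hXall PB hPB8 hPBn) hPA8 hPB8 hHAab hHBab hHcard hHAc hHBc
        rw [hPHA, hPHB] at hg
        exact finish Z₀ A B _ _ hAm hBm g hg

end Cfsg.Agent.Lib.Helper25.ACQUOTTWO
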