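import Mathlib
import Cfsg.Agent.Lib.Helper52.InvAut

/-!
Numerical core of the Suzuki case `|K| = q ^ 2`: the exponent of `q` is odd.
-/

set_option autoImplicit false

namespace Cfsg.Agent.Lib.Helper25.SuzNumA

theorem codiv (q n y y' : ℕ) (hq : q = 2 ^ n) (hn : ¬ Odd n) (hn1 : 1 ≤ n)
    (hyy : q ^ 2 + 1 = y * y') : 2 * q + 3 ≤ y + y' := by
  have hqe : Even q := by
    rw [hq]
    exact (Nat.even_pow' (by omega)).mpr even_two
  obtain ⟨r, hr⟩ := hqe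
  have hodd : Odd (y * y') := by
    rw [← hyy]
    exact ⟨2 * r * r, by rw [hr]; ring⟩
  obtain ⟨hy, hy'⟩ := Nat.odd_mul.mp hodd
  obtain ⟨a, ha⟩ := hy
  obtain ⟨b, hb⟩ := hy'
  -- the sum is even
  have h1 : 2 * q < y + y' := by
    by_contra hc
    push Not at hc
    nlinarith [sq_nonneg ((y : ℤ) - y'), hc, hyy]
  have h2 : y + y' ≠ 2 * q + 1 := by omega
  have h3 : y + y' ≠ 2 * q + 2 := by
    intro h3
    have h4 : ((y' : ℤ) - y) * ((y' : ℤ) - y) = 8 * q := by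
      have e1 : ((y : ℤ) + y') = 2 * q + 2 := by exact_mod_cast h3
      have e2 : ((q : ℤ)) ^ 2 + 1 = y * y' := by exact_mod_cast hyy
      have e3 : ((y' : ℤ) - y) * ((y' : ℤ) - y) = ((y : ℤ) + y') ^ 2 - 4 * (y * y') := by ring
      rw [e3, e1, ← e2]
      ring
    have h5 : ((y' : ℤ) - y).natAbs * ((y' : ℤ) - y).natAbs = 2 ^ (n + 3) := by
      have : (((((y' : ℤ) - y).natAbs * ((y' : ℤ) - y).natAbs : ℕ)) : ℤ) = ((2 ^ (n + 3) : ℕ) : ℤ) := by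
        rw [Nat.cast_mul, Int.natAbs_mul_self', h4, hq]
        push_cast
        ring
      exact_mod_cast this
    have hodd3 : Odd (n + 3) := by
      rcases Nat.even_or_odd n with he | ho
      · obtain ⟨k, hk⟩ := he
        exact ⟨k + 1, by omega⟩
      · exact absurd ho hn
    exact Cfsg.Agent.Lib.Helper52.InvAut.not_sq_prime_pow Nat.prime_two hodd3 h5
  omega

theorem pointA (q e n y : ℕ) (hq : q = 2 ^ n) (hqe : q = e + 1) (he : 0 < e) (hn : ¬ Odd n)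
    (hy : Odd y) (hdvd : e * y ∣ (q ^ 2 + 1) * q ^ 2 * e) :
    (2 * (q : ℚ) ^ 2 - 2 * q + y) / (e * ((q : ℚ) ^ 2 + 1)) < ((q : ℚ) - y) ^ 2 / (e * y) := by
  have hn1 : 1 ≤ n := by
    rcases Nat.eq_zero_or_pos n with h0 | h0
    · rw [h0] at hq
      omega
    · exact h0
  have h1 : y ∣ (q ^ 2 + 1) * q ^ 2 := by
    have : y * e ∣ ((q ^ 2 + 1) * q ^ 2) * e := by rwa [mul_comm y e]
    exact Nat.dvd_of_mul_dvd_mul_right he this
  have hcop : Nat.Coprime y (q ^ 2) := by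
    rw [hq, ← pow_mul]
    apply Nat.Coprime.pow_right
    exact Nat.coprime_two_right.mpr hy
  obtain ⟨y', hy'⟩ := hcop.dvd_of_dvd_mul_right h1
  have hsum := codiv q n y y' hq hn hn1 hy'
  have hy0 : 0 < y := hy.pos
  have hY : (0 : ℚ) < y := by exact_mod_cast hy0
  have hE : (0 : ℚ) < e := by exact_mod_cast he
  have hYY : (y : ℚ) * y' = (q : ℚ) ^ 2 + 1 := by exact_mod_cast hy'.symm
  have hS : 2 * (q : ℚ) + 3 ≤ (y : ℚ) + y' := by exact_mod_cast hsum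
  have hQ1 : (0 : ℚ) < (q : ℚ) ^ 2 + 1 := by positivity
  have hQ : (1 : ℚ) ≤ q := by
    have : 1 ≤ q := by omega
    exact_mod_cast this
  have e1 : ((q : ℚ) - y) ^ 2 / (e * y) = ((q : ℚ) - y) ^ 2 * y' / (e * ((q : ℚ) ^ 2 + 1)) := by
    rw [← hYY]
    have hY' : (y' : ℚ) ≠ 0 := by
      intro h0
      rw [h0, mul_zero] at hYY
      linarith
    field_simp
  rw [e1]
  apply div_lt_div_of_pos_right _ (by positivity)
  have e2 : ((q : ℚ) - y) ^ 2 * y' - (2 * (q : ℚ) ^ 2 - 2 * q + y) =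
      (q : ℚ) ^ 2 * ((y : ℚ) + y' - 2 * q - 2) := by
    linear_combination ((y : ℚ) - 2 * q) * hYY
  have e3 : 0 < (q : ℚ) ^ 2 * ((y : ℚ) + y' - 2 * q - 2) := by
    apply mul_pos (by positivity)
    linarith
  linarith

theorem caseA {α : Type*} [Fintype α] [DecidableEq α]
    (e q n m₀ : ℕ) (hq : q = e + 1) (hqn : q = 2 ^ n) (he : e = 2 * m₀ + 1)
    (m : α → ℕ) (ν X : α → ℤ) (D c : α → ℕ) (triv St : α)
    (hν : ∀ χ, ν χ = 0 ∨ ν χ = 1 ∨ ν χ = -1)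
    (hD : ∀ χ, 0 < D χ)
    (F1 : ∑ χ, m χ * m χ = e + 1)
    (F2 : ∑ χ, ν χ * (m χ : ℤ) = e + 1)
    (F4 : ∑ χ, (m χ : ℤ) * X χ = e)
    (F5 : ∑ χ, (m χ : ℚ) * ((X χ : ℚ) * (X χ : ℚ) / (D χ : ℚ)) ≤
      ((q : ℚ) ^ 2 + e) / ((q : ℚ) ^ 2 + 1))
    (hc2 : ∑ χ, c χ * c χ = 2 * e)
    (hne : St ≠ triv)
    (hSt : c St = 1 ∧ X St = 0 ∧ m St = 1)
    (htriv : c triv = 1 ∧ m triv = 0)
    (hcl : ∀ χ, c χ ≠ 0 → χ = triv ∨ χ = St ∨
      (c χ = 2 ∧ D χ = q ^ 2 + 1 ∧ X χ = 1 ∧ m χ = 1))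
    (arel : ∀ χ, (D χ : ℤ) + e * X χ = (e + 1) * (c χ + e * m χ))
    (par : ∀ χ, D χ % 2 = (c χ + e * m χ) % 2)
    (hdvd : ∀ χ, D χ ∣ (q ^ 2 + 1) * q ^ 2 * e) : Odd n := by
  classical
  by_contra hn
  have he0 : 0 < e := by omega
  have hm1 : ∀ χ, m χ ≤ 1 := by
    have hsum : ∑ χ, ((m χ : ℤ) * ((m χ : ℤ) - ν χ)) = 0 := by
      have e1 : ∑ χ, ((m χ : ℤ) * ((m χ : ℤ) - ν χ)) =
          ((∑ χ, m χ * m χ : ℕ) : ℤ) - ∑ χ, ν χ * (m χ : ℤ) := by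
        rw [Nat.cast_sum, ← Finset.sum_sub_distrib]
        refine Finset.sum_congr rfl fun χ _ => ?_
        push_cast
        ring
      rw [e1, F1, F2]
      push_cast
      ring
    have hnn : ∀ χ ∈ Finset.univ, 0 ≤ (m χ : ℤ) * ((m χ : ℤ) - ν χ) := by
      intro χ _
      rcases Nat.eq_zero_or_pos (m χ) with hz | hp
      · rw [hz]; simp
      · have h1 : (1 : ℤ) ≤ m χ := by exact_mod_cast hp
        rcases hν χ with h | h | h <;> rw [h] <;> nlinarith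
    intro χ
    have hz := (Finset.sum_eq_zero_iff_of_nonneg hnn).mp hsum χ (Finset.mem_univ χ)
    rcases mul_eq_zero.mp hz with h | h
    · have : m χ = 0 := by exact_mod_cast h
      omega
    · have h2 : (m χ : ℤ) ≤ 1 := by
        rcases hν χ with h' | h' | h' <;> rw [h'] at h <;> linarith
      exact_mod_cast h2
  -- the four kinds of characters
  have hcase : ∀ χ, (χ = triv ∧ c χ = 1 ∧ m χ = 0) ∨
      (χ = St ∧ χ ≠ triv ∧ c χ = 1 ∧ m χ = 1 ∧ X χ = 0) ∨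
      (χ ≠ triv ∧ χ ≠ St ∧ c χ = 2 ∧ D χ = q ^ 2 + 1 ∧ X χ = 1 ∧ m χ = 1) ∨
      (χ ≠ triv ∧ χ ≠ St ∧ c χ = 0 ∧ (m χ = 0 ∨ m χ = 1)) := by
    intro χ
    by_cases h1 : χ = triv
    · left
      rw [h1]
      exact ⟨rfl, htriv.1, htriv.2⟩
    · by_cases h2 : χ = St
      · right; left
        rw [h2]
        exact ⟨rfl, hne, hSt.1, hSt.2.2, hSt.2.1⟩
      · by_cases h3 : c χ = 0
        · right; right; right
          have := hm1 χ
          exact ⟨h1, h2, h3, by omega⟩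
        · right; right; left
          rcases hcl χ h3 with h | h | h
          · exact absurd h h1
          · exact absurd h h2
          · exact ⟨h1, h2, h⟩
  have idc : ∀ χ, ((c χ : ℚ) * (c χ : ℚ)) = (if χ = triv then (1 : ℚ) else 0) +
      (if χ = St then (1 : ℚ) else 0) + 4 * (if c χ = 2 then (1 : ℚ) else 0) := by
    intro χ
    rcases hcase χ with ⟨h1, h2, h3⟩ | ⟨h1, h2, h3, h4, h5⟩ | ⟨h1, h2, h3, h4, h5, h6⟩ |
      ⟨h1, h2, h3, h4⟩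
    · have : χ ≠ St := by rw [h1]; exact hne.symm
      rw [if_pos h1, if_neg this, h2]
      norm_num
    · rw [if_neg h2, if_pos h1, h3]
      norm_num
    · rw [if_neg h1, if_neg h2, if_pos h3, h3]
      norm_num
    · rw [if_neg h1, if_neg h2, h3]
      norm_num
  have idm : ∀ χ, ((m χ : ℚ) * (m χ : ℚ)) = (if χ = St then (1 : ℚ) else 0) +
      (if c χ = 2 then (1 : ℚ) else 0) + (if m χ = 1 ∧ c χ = 0 then (1 : ℚ) else 0) := by
    intro χ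
    rcases hcase χ with ⟨h1, h2, h3⟩ | ⟨h1, h2, h3, h4, h5⟩ | ⟨h1, h2, h3, h4, h5, h6⟩ |
      ⟨h1, h2, h3, h4⟩
    · have : χ ≠ St := by rw [h1]; exact hne.symm
      rw [if_neg this, h2, h3]
      norm_num
    · rw [if_pos h1, h3, h4]
      norm_num
    · rw [if_neg h2, if_pos h3, h3, h6]
      norm_num
    · rw [if_neg h2, h3]
      rcases h4 with h4 | h4 <;> rw [h4] <;> norm_num
  have idX : ∀ χ, ((m χ : ℚ) * (X χ : ℚ)) = (if c χ = 2 then (1 : ℚ) else 0) +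
      (if m χ = 1 ∧ c χ = 0 then (X χ : ℚ) else 0) := by
    intro χ
    rcases hcase χ with ⟨h1, h2, h3⟩ | ⟨h1, h2, h3, h4, h5⟩ | ⟨h1, h2, h3, h4, h5, h6⟩ |
      ⟨h1, h2, h3, h4⟩
    · rw [h2, h3]
      norm_num
    · rw [h3, h4, h5]
      norm_num
    · rw [if_pos h3, h3, h6, h5]
      norm_num
    · rw [h3]
      rcases h4 with h4 | h4 <;> rw [h4] <;> norm_num
  have idF : ∀ χ, (m χ : ℚ) * ((X χ : ℚ) * (X χ : ℚ) / (D χ : ℚ)) =
      (1 / ((q : ℚ) ^ 2 + 1)) * (if c χ = 2 then (1 : ℚ) else 0) +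
      (if m χ = 1 ∧ c χ = 0 then ((X χ : ℚ) * (X χ : ℚ) / (D χ : ℚ)) else 0) := by
    intro χ
    rcases hcase χ with ⟨h1, h2, h3⟩ | ⟨h1, h2, h3, h4, h5⟩ | ⟨h1, h2, h3, h4, h5, h6⟩ |
      ⟨h1, h2, h3, h4⟩
    · rw [h2, h3]
      norm_num
    · rw [h3, h4, h5]
      norm_num
    · rw [if_pos h3, h3, h6, h5, h4]
      push_cast
      norm_num
    · rw [h3]
      rcases h4 with h4 | h4 <;> rw [h4] <;> norm_num
  -- the sums
  obtain ⟨nC, hnC⟩ : ∃ nC : ℚ, nC = ∑ χ : α, (if c χ = 2 then (1 : ℚ) else 0) := ⟨_, rfl⟩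
  obtain ⟨nT, hnT⟩ : ∃ nT : ℚ, nT = ∑ χ : α, (if m χ = 1 ∧ c χ = 0 then (1 : ℚ) else 0) :=
    ⟨_, rfl⟩
  obtain ⟨sX, hsX⟩ : ∃ sX : ℚ, sX = ∑ χ : α, (if m χ = 1 ∧ c χ = 0 then (X χ : ℚ) else 0) :=
    ⟨_, rfl⟩
  obtain ⟨A, hA⟩ : ∃ A : ℚ, A = ∑ χ : α,
      (if m χ = 1 ∧ c χ = 0 then ((X χ : ℚ) * (X χ : ℚ) / (D χ : ℚ)) else 0) := ⟨_, rfl⟩
  have sR : ∑ χ : α, (if χ = triv then (1 : ℚ) else 0) = 1 := by
    rw [Finset.sum_ite_eq' Finset.univ triv (fun _ => (1 : ℚ)), if_pos (Finset.mem_univ _)]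
  have sS : ∑ χ : α, (if χ = St then (1 : ℚ) else 0) = 1 := by
    rw [Finset.sum_ite_eq' Finset.univ St (fun _ => (1 : ℚ)), if_pos (Finset.mem_univ _)]
  have E1 : 1 + 1 + 4 * nC = 2 * (e : ℚ) := by
    have h1 : ∑ χ, ((c χ : ℚ) * (c χ : ℚ)) = 2 * (e : ℚ) := by exact_mod_cast hc2
    rw [Finset.sum_congr rfl (fun χ _ => idc χ), Finset.sum_add_distrib, Finset.sum_add_distrib,
      sR, sS, ← Finset.mul_sum, ← hnC] at h1
    exact h1
  have E2 : 1 + nC + nT = (e : ℚ) + 1 := by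
    have h1 : ∑ χ, ((m χ : ℚ) * (m χ : ℚ)) = (e : ℚ) + 1 := by exact_mod_cast F1
    rw [Finset.sum_congr rfl (fun χ _ => idm χ), Finset.sum_add_distrib, Finset.sum_add_distrib,
      sS, ← hnC, ← hnT] at h1
    exact h1
  have E3 : nC + sX = (e : ℚ) := by
    have h1 : ∑ χ, ((m χ : ℚ) * (X χ : ℚ)) = (e : ℚ) := by exact_mod_cast F4
    rw [Finset.sum_congr rfl (fun χ _ => idX χ), Finset.sum_add_distrib, ← hnC, ← hsX] at h1
    exact h1
  have E4 : (1 / ((q : ℚ) ^ 2 + 1)) * nC + A ≤ ((q : ℚ) ^ 2 + e) / ((q : ℚ) ^ 2 + 1) := by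
    rw [Finset.sum_congr rfl (fun χ _ => idF χ), Finset.sum_add_distrib, ← Finset.mul_sum,
      ← hnC, ← hA] at F5
    exact F5
  have hE : (0 : ℚ) < e := by exact_mod_cast he0
  have hQ : (q : ℚ) = (e : ℚ) + 1 := by exact_mod_cast hq
  -- the pointwise bound
  have hpt : ∀ χ, m χ = 1 ∧ c χ = 0 →
      (2 * (q : ℚ) ^ 2 - q - X χ) / (e * ((q : ℚ) ^ 2 + 1)) <
        (X χ : ℚ) * (X χ : ℚ) / (D χ : ℚ) := by
    rintro χ ⟨hm, hc⟩
    have h1 := arel χ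
    rw [hc, hm] at h1
    have h2 : (D χ : ℤ) = e * ((q : ℤ) - X χ) := by
      rw [hq]
      push_cast at h1 ⊢
      linear_combination h1
    have h3 : 0 < (q : ℤ) - X χ := by
      by_contra hcon
      push Not at hcon
      have hDp : (0 : ℤ) < D χ := by exact_mod_cast hD χ
      have heZ : (0 : ℤ) < e := by exact_mod_cast he0
      nlinarith
    obtain ⟨y, hy⟩ : ∃ y : ℕ, (y : ℤ) = (q : ℤ) - X χ := ⟨((q : ℤ) - X χ).toNat, Int.toNat_of_nonneg h3.le⟩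
    have hDy : D χ = e * y := by
      have : (D χ : ℤ) = ((e * y : ℕ) : ℤ) := by
        rw [h2, ← hy]
        push_cast
        ring
      exact_mod_cast this
    have hpar := par χ
    rw [hc, hm, hDy] at hpar
    have hoddD : Odd (e * y) := by
      rw [Nat.odd_iff, hpar]
      omega
    have hyodd : Odd y := (Nat.odd_mul.mp hoddD).2
    have hdv := hdvd χ
    rw [hDy] at hdv
    have hp := pointA q e n y hqn hq he0 hn hyodd hdv
    have hXq : (X χ : ℚ) = (q : ℚ) - y := by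
      have : X χ = (q : ℤ) - y := by rw [hy]; ring
      rw [this]
      push_cast
      ring
    have hDq : (D χ : ℚ) = (e : ℚ) * y := by
      rw [hDy]
      push_cast
      ring
    rw [hXq, hDq]
    have e1 : (2 * (q : ℚ) ^ 2 - q - ((q : ℚ) - y)) = 2 * (q : ℚ) ^ 2 - 2 * q + y := by ring
    have e2 : ((q : ℚ) - y) * ((q : ℚ) - y) = ((q : ℚ) - y) ^ 2 := by ring
    rw [e1, e2]
    exact hp
  -- a character of the fourth kind exists
  have hex : ∃ χ, m χ = 1 ∧ c χ = 0 := by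
    by_contra hcon
    push Not at hcon
    have : nT = 0 := by
      rw [hnT]
      apply Finset.sum_eq_zero
      intro χ _
      rw [if_neg]
      rintro ⟨h1, h2⟩
      exact hcon χ h1 h2
    have heq : (e : ℚ) = 2 * m₀ + 1 := by exact_mod_cast he
    have hm0 : (0 : ℚ) ≤ m₀ := by positivity
    linarith
  have hlt : ∑ χ : α, (if m χ = 1 ∧ c χ = 0 then
      (2 * (q : ℚ) ^ 2 - q - X χ) / (e * ((q : ℚ) ^ 2 + 1)) else 0) < A := by
    rw [hA]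
    apply Finset.sum_lt_sum
    · intro χ _
      by_cases hT : m χ = 1 ∧ c χ = 0
      · rw [if_pos hT, if_pos hT]
        exact (hpt χ hT).le
      · rw [if_neg hT, if_neg hT]
    · obtain ⟨χ, hT⟩ := hex
      refine ⟨χ, Finset.mem_univ _, ?_⟩
      rw [if_pos hT, if_pos hT]
      exact hpt χ hT
  have hB : ∑ χ : α, (if m χ = 1 ∧ c χ = 0 then
      (2 * (q : ℚ) ^ 2 - q - X χ) / (e * ((q : ℚ) ^ 2 + 1)) else 0) =
      ((2 * (q : ℚ) ^ 2 - q) * nT - sX) / (e * ((q : ℚ) ^ 2 + 1)) := by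
    have e1 : ∀ χ : α, (if m χ = 1 ∧ c χ = 0 then
        (2 * (q : ℚ) ^ 2 - q - X χ) / (e * ((q : ℚ) ^ 2 + 1)) else 0) =
        ((2 * (q : ℚ) ^ 2 - q) / (e * ((q : ℚ) ^ 2 + 1))) *
          (if m χ = 1 ∧ c χ = 0 then (1 : ℚ) else 0) -
        (1 / (e * ((q : ℚ) ^ 2 + 1))) * (if m χ = 1 ∧ c χ = 0 then (X χ : ℚ) else 0) := by
      intro χ
      split_ifs <;> ring
    rw [Finset.sum_congr rfl (fun χ _ => e1 χ), Finset.sum_sub_distrib, ← Finset.mul_sum,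
      ← Finset.mul_sum, ← hnT, ← hsX]
    ring
  rw [hB] at hlt
  have hnCv : nC = ((e : ℚ) - 1) / 2 := by linarith
  have hnTv : nT = ((e : ℚ) + 1) / 2 := by linarith
  have hsXv : sX = ((e : ℚ) + 1) / 2 := by linarith
  have key : (1 / ((q : ℚ) ^ 2 + 1)) * nC +
      ((2 * (q : ℚ) ^ 2 - q) * nT - sX) / (e * ((q : ℚ) ^ 2 + 1)) =
      ((q : ℚ) ^ 2 + e) / ((q : ℚ) ^ 2 + 1) := by
    rw [hnCv, hnTv, hsXv, hQ]
    have h0 : ((e : ℚ) + 1) ^ 2 + 1 ≠ 0 := by positivity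
    field_simp
    ring
  linarith

end Cfsg.Agent.Lib.Helper25.SuzNumA
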