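import Mathlib

/-!
Numerical core excluding the case `|K| = q ^ 3` of a Suzuki `2`-group as the regular normal
subgroup of a point stabiliser in a simple Zassenhaus group.
-/

set_option autoImplicit false

namespace Cfsg.Agent.Lib.Helper25.SuzNumB

theorem zero_one {α : Type*} [Fintype α] (m : α → ℕ) (ν : α → ℤ) (k : ℕ)
    (hν : ∀ χ, ν χ = 0 ∨ ν χ = 1 ∨ ν χ = -1)
    (F1 : ∑ χ, m χ * m χ = k) (F2 : ∑ χ, ν χ * (m χ : ℤ) = k) :
    ∀ χ, m χ ≤ 1 ∧ (m χ = 1 → ν χ = 1) := by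
  have hsum : ∑ χ, ((m χ : ℤ) * ((m χ : ℤ) - ν χ)) = 0 := by
    have e1 : ∑ χ, ((m χ : ℤ) * ((m χ : ℤ) - ν χ)) =
        ((∑ χ, m χ * m χ : ℕ) : ℤ) - ∑ χ, ν χ * (m χ : ℤ) := by
      rw [Nat.cast_sum, ← Finset.sum_sub_distrib]
      refine Finset.sum_congr rfl fun χ _ => ?_
      push_cast
      ring
    rw [e1, F1, F2]
    ring
  have hnn : ∀ χ ∈ Finset.univ, 0 ≤ (m χ : ℤ) * ((m χ : ℤ) - ν χ) := by
    intro χ _
    rcases Nat.eq_zero_or_pos (m χ) with hz | hp
    · rw [hz]; simp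
    · have h1 : (1 : ℤ) ≤ m χ := by exact_mod_cast hp
      rcases hν χ with h | h | h <;> rw [h] <;> nlinarith
  intro χ
  have hz := (Finset.sum_eq_zero_iff_of_nonneg hnn).mp hsum χ (Finset.mem_univ χ)
  rcases mul_eq_zero.mp hz with h | h
  · have : m χ = 0 := by exact_mod_cast h
    exact ⟨by omega, by omega⟩
  · have h2 : (m χ : ℤ) ≤ 1 := by
      rcases hν χ with h' | h' | h' <;> rw [h'] at h <;> linarith
    refine ⟨by exact_mod_cast h2, fun h1 => ?_⟩
    rw [h1] at h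
    push_cast at h
    linarith

theorem sunflower {α ι : Type*} [DecidableEq α] [DecidableEq ι] (I : Finset ι)
    (T : ι → Finset α) (q : ℕ) (hq : 2 ≤ q) (hI : I.card = q + 1)
    (hcard : ∀ i ∈ I, (T i).card = q)
    (hint : ∀ i ∈ I, ∀ j ∈ I, i ≠ j → (T i ∩ T j).card = q - 1)
    (s : α) (hs : ∀ i ∈ I, s ∈ T i) (i₀ : ι) (hi₀ : i₀ ∈ I) :
    ∃ b ∈ T i₀, ∃ a : ι → α,
      (∀ j ∈ I, j ≠ i₀ → a j ∉ T i₀ ∧ T j = insert (a j) ((T i₀).erase b)) ∧
      (∀ j ∈ I, ∀ j' ∈ I, j ≠ i₀ → j' ≠ i₀ → j ≠ j' → a j ≠ a j') := by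
  classical
  have h1 : ∀ j, j ∈ I → j ≠ i₀ → ∃ b a, T i₀ \ T j = {b} ∧ T j \ T i₀ = {a} := by
    intro j hj hne
    have e1 : (T i₀ \ T j).card = 1 := by
      have := Finset.card_sdiff_add_card_inter (T i₀) (T j)
      rw [hcard i₀ hi₀, hint i₀ hi₀ j hj hne.symm] at this
      omega
    have e2 : (T j \ T i₀).card = 1 := by
      have := Finset.card_sdiff_add_card_inter (T j) (T i₀)
      rw [hcard j hj, hint j hj i₀ hi₀ hne] at this
      omega
    obtain ⟨b, hb⟩ := Finset.card_eq_one.mp e1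
    obtain ⟨a, ha⟩ := Finset.card_eq_one.mp e2
    exact ⟨b, a, hb, ha⟩
  have : Nonempty α := ⟨s⟩
  choose! b a hba using h1
  have hbm : ∀ j, j ∈ I → j ≠ i₀ → ∀ x, (x ∈ T i₀ ∧ x ∉ T j) ↔ x = b j := by
    intro j hj hne x
    have := (hba j hj hne).1
    rw [← Finset.mem_sdiff, this, Finset.mem_singleton]
  have ham : ∀ j, j ∈ I → j ≠ i₀ → ∀ x, (x ∈ T j ∧ x ∉ T i₀) ↔ x = a j := by
    intro j hj hne x
    have := (hba j hj hne).2
    rw [← Finset.mem_sdiff, this, Finset.mem_singleton]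
  have hTj : ∀ j, j ∈ I → j ≠ i₀ → ∀ x, x ∈ T j ↔ (x = a j ∨ (x ∈ T i₀ ∧ x ≠ b j)) := by
    intro j hj hne x
    constructor
    · intro hx
      by_cases hx0 : x ∈ T i₀
      · right
        exact ⟨hx0, fun h => ((hbm j hj hne x).mpr h).2 hx⟩
      · left
        exact (ham j hj hne x).mp ⟨hx, hx0⟩
    · rintro (h | ⟨h1, h2⟩)
      · exact ((ham j hj hne x).mpr h).1
      · by_contra hx
        exact h2 ((hbm j hj hne x).mp ⟨h1, hx⟩)
  have hdich : ∀ j, j ∈ I → j ≠ i₀ → ∀ j', j' ∈ I → j' ≠ i₀ → j ≠ j' →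
      (b j = b j' ∧ a j ≠ a j') ∨ (b j ≠ b j' ∧ a j = a j') := by
    intro j hj hne j' hj' hne' hjj'
    have hc := hint j hj j' hj' hjj'
    by_cases hb : b j = b j'
    · left
      refine ⟨hb, fun ha' => ?_⟩
      have hTT : T j = T j' := by
        ext x
        rw [hTj j hj hne, hTj j' hj' hne', hb, ha']
      rw [hTT, Finset.inter_self, hcard j' hj'] at hc
      omega
    · right
      refine ⟨hb, ?_⟩
      by_contra ha'
      have hsub : T j ∩ T j' ⊆ ((T i₀).erase (b j)).erase (b j') := by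
        intro x hx
        rw [Finset.mem_inter, hTj j hj hne, hTj j' hj' hne'] at hx
        obtain ⟨h1 | h1, h2 | h2⟩ := hx
        · exact absurd (h1.symm.trans h2) ha'
        · exact absurd h2.1 (by rw [h1]; exact ((ham j hj hne (a j)).mpr rfl).2)
        · exact absurd h1.1 (by rw [h2]; exact ((ham j' hj' hne' (a j')).mpr rfl).2)
        · simp only [Finset.mem_erase]
          exact ⟨h2.2, h1.2, h1.1⟩
      have hcard2 : (((T i₀).erase (b j)).erase (b j')).card = q - 1 - 1 := by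
        rw [Finset.card_erase_of_mem, Finset.card_erase_of_mem, hcard i₀ hi₀]
        · exact ((hbm j hj hne (b j)).mpr rfl).1
        · rw [Finset.mem_erase]
          exact ⟨fun h => hb h.symm, ((hbm j' hj' hne' (b j')).mpr rfl).1⟩
      have := Finset.card_le_card hsub
      rw [hc, hcard2] at this
      omega
  have hex : ∃ j₁ ∈ I, j₁ ≠ i₀ := by
    by_contra hcon
    push Not at hcon
    have h1 : I ⊆ {i₀} := fun j hj => Finset.mem_singleton.mpr (hcon j hj)
    have h2 := Finset.card_le_card h1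
    rw [hI, Finset.card_singleton] at h2
    omega
  obtain ⟨j₁, hj₁, hj₁ne⟩ := hex
  by_cases hall : ∀ j ∈ I, j ≠ i₀ → b j = b j₁
  · refine ⟨b j₁, ((hbm j₁ hj₁ hj₁ne (b j₁)).mpr rfl).1, a, ?_, ?_⟩
    · intro j hj hne
      refine ⟨((ham j hj hne (a j)).mpr rfl).2, ?_⟩
      ext x
      rw [hTj j hj hne, hall j hj hne, Finset.mem_insert, Finset.mem_erase]
      tauto
    · intro j hj j' hj' hne hne' hjj'
      rcases hdich j hj hne j' hj' hne' hjj' with h | h
      · exact h.2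
      · exact absurd ((hall j hj hne).trans (hall j' hj' hne').symm) h.1
  · exfalso
    push Not at hall
    obtain ⟨j₂, hj₂, hj₂ne, hb12⟩ := hall
    have hj21 : j₂ ≠ j₁ := by
      rintro rfl
      exact hb12 rfl
    have ha12 : a j₂ = a j₁ := by
      rcases hdich j₂ hj₂ hj₂ne j₁ hj₁ hj₁ne hj21 with h | h
      · exact absurd h.1 hb12
      · exact h.2
    have haall : ∀ j ∈ I, j ≠ i₀ → a j = a j₁ := by
      intro j hj hne
      by_cases e1 : j = j₁
      · rw [e1]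
      by_cases e2 : j = j₂
      · rw [e2]
        exact ha12
      rcases hdich j hj hne j₁ hj₁ hj₁ne e1 with h | h
      · rcases hdich j hj hne j₂ hj₂ hj₂ne e2 with h' | h'
        · exact absurd (h'.1.symm.trans h.1) hb12
        · exact absurd (h'.2.trans ha12) h.2
      · exact h.2
    have hbinj : ∀ j ∈ I.erase i₀, ∀ j' ∈ I.erase i₀, j ≠ j' → b j ≠ b j' := by
      intro j hj j' hj' hjj'
      rw [Finset.mem_erase] at hj hj'
      rcases hdich j hj.2 hj.1 j' hj'.2 hj'.1 hjj' with h | h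
      · exact absurd ((haall j hj.2 hj.1).trans (haall j' hj'.2 hj'.1).symm) h.2
      · exact h.1
    have hmaps : ∀ j ∈ I.erase i₀, b j ∈ (T i₀).erase s := by
      intro j hj
      rw [Finset.mem_erase] at hj
      rw [Finset.mem_erase]
      have h3 := (hbm j hj.2 hj.1 (b j)).mpr rfl
      exact ⟨fun h => h3.2 (by rw [h]; exact hs j hj.2), h3.1⟩
    have hlt : ((T i₀).erase s).card < (I.erase i₀).card := by
      rw [Finset.card_erase_of_mem (hs i₀ hi₀), Finset.card_erase_of_mem hi₀, hcard i₀ hi₀, hI]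
      omega
    obtain ⟨j, hj, j', hj', hne, heq⟩ :=
      Finset.exists_ne_map_eq_of_card_lt_of_maps_to hlt hmaps
    exact hbinj j hj j' hj' hne heq

theorem caseB {α ι : Type*} [Fintype α] [DecidableEq α] [DecidableEq ι]
    (q J : ℕ) (hq : 4 ≤ q) (I : Finset ι) (hI : I.card = q + 1)
    (m : ι → α → ℕ) (ν X : α → ℤ) (D c : α → ℕ) (triv St : α)
    (hν : ∀ χ, ν χ = 0 ∨ ν χ = 1 ∨ ν χ = -1)
    (hD : ∀ χ, 0 < D χ)
    (F1 : ∀ i ∈ I, ∑ χ, m i χ * m i χ = q)
    (F1' : ∀ i ∈ I, ∀ j ∈ I, i ≠ j → ∑ χ, m i χ * m j χ = q - 1)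
    (F2 : ∀ i ∈ I, ∑ χ, ν χ * (m i χ : ℤ) = q)
    (F3 : ∀ i ∈ I, ∑ χ, m i χ * D χ = J)
    (hSt : ∀ i ∈ I, m i St = 1) (htriv : ∀ i ∈ I, m i triv = 0)
    (hνtriv : ν triv = 1) (hDtriv : D triv = 1)
    (hc : ∀ χ, c χ ≠ 0 → χ = triv ∨ ∀ i ∈ I, m i χ = 1)
    (arel : ∀ χ, (D χ : ℤ) + ((q : ℤ) - 1) * X χ =
      q * (c χ + ((q : ℤ) - 1) * ∑ i ∈ I, (m i χ : ℤ)))
    (FS1 : ∑ χ, ν χ * (D χ : ℤ) = 1 + J)
    (hreal : ∑ χ, ν χ * ν χ ≤ 2 * q + 2)
    (hcol : ∑ χ, X χ * X χ = (q : ℤ) ^ 3)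
    (hker : ∀ χ, X χ = D χ → D χ = 1) : False := by
  classical
  have h01 : ∀ i ∈ I, ∀ χ, m i χ ≤ 1 ∧ (m i χ = 1 → ν χ = 1) :=
    fun i hi => zero_one (m i) ν q hν (F1 i hi) (F2 i hi)
  obtain ⟨T, memT⟩ : ∃ T : ι → Finset α, ∀ i χ, χ ∈ T i ↔ m i χ = 1 :=
    ⟨fun i => Finset.univ.filter (fun χ => m i χ = 1), by simp⟩
  have hm_ite : ∀ i ∈ I, ∀ χ, m i χ = if χ ∈ T i then 1 else 0 := by
    intro i hi χ
    by_cases h : χ ∈ T i
    · rw [if_pos h]
      exact (memT i χ).mp h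
    · rw [if_neg h]
      have h1 := (h01 i hi χ).1
      have h2 : m i χ ≠ 1 := fun h' => h ((memT i χ).mpr h')
      omega
  have hcard : ∀ i ∈ I, (T i).card = q := by
    intro i hi
    rw [← F1 i hi, Finset.card_eq_sum_ones, ← Finset.univ_inter (T i), ← Finset.sum_ite_mem]
    refine Finset.sum_congr rfl fun χ _ => ?_
    rw [hm_ite i hi χ]
    split_ifs <;> simp
  have hint : ∀ i ∈ I, ∀ j ∈ I, i ≠ j → (T i ∩ T j).card = q - 1 := by
    intro i hi j hj hij
    rw [← F1' i hi j hj hij, Finset.card_eq_sum_ones, ← Finset.univ_inter (T i ∩ T j),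
      ← Finset.sum_ite_mem]
    refine Finset.sum_congr rfl fun χ _ => ?_
    rw [hm_ite i hi χ, hm_ite j hj χ]
    by_cases h1 : χ ∈ T i <;> by_cases h2 : χ ∈ T j <;> simp [h1, h2, Finset.mem_inter]
  obtain ⟨i₀, hi₀⟩ : ∃ i₀, i₀ ∈ I := Finset.card_pos.mp (by omega)
  obtain ⟨b, hb, a, ha, hainj⟩ := sunflower I T q (by omega) hI hcard hint St
    (fun i hi => (memT i St).mpr (hSt i hi)) i₀ hi₀
  have hbT : ∀ j ∈ I, j ≠ i₀ → b ∉ T j := by
    intro j hj hne
    rw [(ha j hj hne).2, Finset.mem_insert, Finset.mem_erase]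
    rintro (h | h)
    · exact (ha j hj hne).1 (h ▸ hb)
    · exact h.1 rfl
  have haT : ∀ j ∈ I, j ≠ i₀ → a j ∈ T j := by
    intro j hj hne
    rw [(ha j hj hne).2]
    exact Finset.mem_insert_self _ _
  have haT' : ∀ j ∈ I, j ≠ i₀ → ∀ j' ∈ I, j' ≠ i₀ → j ≠ j' → a j ∉ T j' := by
    intro j hj hne j' hj' hne' hjj'
    rw [(ha j' hj' hne').2, Finset.mem_insert, Finset.mem_erase]
    rintro (h | h)
    · exact hainj j hj j' hj' hne hne' hjj' h
    · exact (ha j hj hne).1 h.2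
  obtain ⟨j₁, hj₁, hj₁ne⟩ : ∃ j₁ ∈ I, j₁ ≠ i₀ := by
    by_contra hcon
    push Not at hcon
    have h1 : I ⊆ {i₀} := fun j hj => Finset.mem_singleton.mpr (hcon j hj)
    have h2 := Finset.card_le_card h1
    rw [hI, Finset.card_singleton] at h2
    omega
  have sb : ∑ i ∈ I, (m i b : ℤ) = 1 := by
    have h1 : ∀ i ∈ I, (m i b : ℤ) = if i = i₀ then 1 else 0 := by
      intro i hi
      rw [hm_ite i hi b]
      by_cases h : i = i₀
      · rw [if_pos h, h, if_pos hb]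
        simp
      · rw [if_neg h, if_neg (hbT i hi h)]
        simp
    rw [Finset.sum_congr rfl h1, Finset.sum_ite_eq', if_pos hi₀]
  have sa : ∀ j ∈ I, j ≠ i₀ → ∑ i ∈ I, (m i (a j) : ℤ) = 1 := by
    intro j hj hne
    have h1 : ∀ i ∈ I, (m i (a j) : ℤ) = if i = j then 1 else 0 := by
      intro i hi
      rw [hm_ite i hi (a j)]
      by_cases h : i = j
      · rw [if_pos h, h, if_pos (haT j hj hne)]
        simp
      · rw [if_neg h]
        by_cases hi0 : i = i₀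
        · rw [hi0, if_neg (ha j hj hne).1]
          simp
        · rw [if_neg (haT' j hj hne i hi hi0 (Ne.symm h))]
          simp
    rw [Finset.sum_congr rfl h1, Finset.sum_ite_eq', if_pos hj]
  have mb : m i₀ b = 1 := (memT i₀ b).mp hb
  have cb : c b = 0 := by
    by_contra hcb
    rcases hc b hcb with h | h
    · rw [h, htriv i₀ hi₀] at mb
      omega
    · exact hbT j₁ hj₁ hj₁ne ((memT j₁ b).mpr (h j₁ hj₁))
  have ca : ∀ j ∈ I, j ≠ i₀ → c (a j) = 0 := by
    intro j hj hne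
    by_contra hcb
    rcases hc (a j) hcb with h | h
    · have h1 := (memT j (a j)).mp (haT j hj hne)
      rw [h, htriv j hj] at h1
      omega
    · exact (ha j hj hne).1 ((memT i₀ (a j)).mpr (h i₀ hi₀))
  have sumT : ∀ i ∈ I, ∑ χ ∈ T i, D χ = J := by
    intro i hi
    rw [← F3 i hi, ← Finset.univ_inter (T i), ← Finset.sum_ite_mem]
    refine Finset.sum_congr rfl fun χ _ => ?_
    rw [hm_ite i hi χ]
    split_ifs <;> simp
  have hDa : ∀ j ∈ I, j ≠ i₀ → D (a j) = D b := by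
    intro j hj hne
    have h1 := sumT j hj
    have h2 := sumT i₀ hi₀
    rw [(ha j hj hne).2, Finset.sum_insert
      (by rw [Finset.mem_erase]; exact fun h => (ha j hj hne).1 h.2)] at h1
    rw [← Finset.add_sum_erase _ _ hb] at h2
    omega
  -- the known real characters
  have htrivT : ∀ i ∈ I, triv ∉ T i := by
    intro i hi h
    have := (memT i triv).mp h
    rw [htriv i hi] at this
    omega
  have htriva : triv ∉ (I.erase i₀).image a := by
    intro h
    obtain ⟨j, hj, hja⟩ := Finset.mem_image.mp h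
    rw [Finset.mem_erase] at hj
    exact htrivT j hj.2 (hja ▸ haT j hj.2 hj.1)
  have hdisj : Disjoint (T i₀) ((I.erase i₀).image a) := by
    rw [Finset.disjoint_left]
    intro χ hχ h
    obtain ⟨j, hj, hja⟩ := Finset.mem_image.mp h
    rw [Finset.mem_erase] at hj
    exact (ha j hj.2 hj.1).1 (hja ▸ hχ)
  have hinj : ∀ x ∈ I.erase i₀, ∀ y ∈ I.erase i₀, a x = a y → x = y := by
    intro x hx y hy hxy
    rw [Finset.mem_erase] at hx hy
    by_contra hne
    exact hainj x hx.2 y hy.2 hx.1 hy.1 hne hxy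
  obtain ⟨S, hS⟩ : ∃ S : Finset α, S = insert triv (T i₀ ∪ (I.erase i₀).image a) := ⟨_, rfl⟩
  have sumS : ∀ f : α → ℤ, ∑ χ ∈ S, f χ =
      f triv + ∑ χ ∈ T i₀, f χ + ∑ j ∈ I.erase i₀, f (a j) := by
    intro f
    rw [hS, Finset.sum_insert (by
      rw [Finset.mem_union]
      rintro (h | h)
      · exact htrivT i₀ hi₀ h
      · exact htriva h), Finset.sum_union hdisj, Finset.sum_image hinj]
    ring
  have hνT : ∀ χ ∈ T i₀, ν χ = 1 := fun χ hχ => (h01 i₀ hi₀ χ).2 ((memT i₀ χ).mp hχ)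
  have hνa : ∀ j ∈ I.erase i₀, ν (a j) = 1 := by
    intro j hj
    rw [Finset.mem_erase] at hj
    exact (h01 j hj.2 (a j)).2 ((memT j (a j)).mp (haT j hj.2 hj.1))
  have cI' : (I.erase i₀).card = q := by
    rw [Finset.card_erase_of_mem hi₀, hI]
    rfl
  have s1 : ∑ χ ∈ S, ν χ * ν χ = 2 * q + 1 := by
    have e2 : ∑ χ ∈ T i₀, ν χ * ν χ = q := by
      rw [Finset.sum_congr rfl (g := fun _ => (1 : ℤ)) (fun χ hχ => by rw [hνT χ hχ, mul_one]),
        Finset.sum_const, hcard i₀ hi₀, nsmul_eq_mul, mul_one]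
    have e3 : ∑ j ∈ I.erase i₀, ν (a j) * ν (a j) = q := by
      rw [Finset.sum_congr rfl (g := fun _ => (1 : ℤ)) (fun j hj => by rw [hνa j hj, mul_one]),
        Finset.sum_const, cI', nsmul_eq_mul, mul_one]
    rw [sumS, hνtriv, e2, e3]
    ring
  have s2 : ∑ χ ∈ S, ν χ * (D χ : ℤ) = 1 + J + q * D b := by
    have e1 : ∑ χ ∈ T i₀, (D χ : ℤ) = J := by exact_mod_cast sumT i₀ hi₀
    have e4 : ∑ χ ∈ T i₀, ν χ * (D χ : ℤ) = J := by
      rw [Finset.sum_congr rfl (g := fun χ => (D χ : ℤ))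
        (fun χ hχ => by rw [hνT χ hχ, one_mul]), e1]
    have e5 : ∑ j ∈ I.erase i₀, ν (a j) * (D (a j) : ℤ) = q * D b := by
      rw [Finset.sum_congr rfl (g := fun _ => (D b : ℤ)) (fun j hj => by
        rw [hνa j hj, one_mul, hDa j (Finset.mem_erase.mp hj).2 (Finset.mem_erase.mp hj).1]),
        Finset.sum_const, cI', nsmul_eq_mul]
    rw [sumS, hνtriv, hDtriv, e4, e5]
    push_cast
    ring
  have r1 : ∑ χ ∈ Sᶜ, ν χ * ν χ ≤ 1 := by
    have := Finset.sum_add_sum_compl S (fun χ => ν χ * ν χ)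
    rw [s1] at this
    linarith
  have r2 : ∑ χ ∈ Sᶜ, ν χ * (D χ : ℤ) = -(q * D b) := by
    have := Finset.sum_add_sum_compl S (fun χ => ν χ * (D χ : ℤ))
    rw [s2, FS1] at this
    linarith
  have hDb : (0 : ℤ) < D b := by exact_mod_cast hD b
  have hq0 : (4 : ℤ) ≤ q := by exact_mod_cast hq
  obtain ⟨x, hxS, hνx⟩ : ∃ x ∈ Sᶜ, ν x = -1 := by
    by_contra hcon
    push Not at hcon
    have : 0 ≤ ∑ χ ∈ Sᶜ, ν χ * (D χ : ℤ) := by
      apply Finset.sum_nonneg
      intro χ hχ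
      have hDχ : (0 : ℤ) < D χ := by exact_mod_cast hD χ
      rcases hν χ with h | h | h
      · rw [h]; simp
      · rw [h]; linarith
      · exact absurd h (hcon χ hχ)
    rw [r2] at this
    nlinarith
  have hrest : ∀ χ ∈ Sᶜ.erase x, ν χ = 0 := by
    have h1 : ∑ χ ∈ Sᶜ.erase x, ν χ * ν χ ≤ 0 := by
      rw [← Finset.add_sum_erase _ _ hxS, hνx] at r1
      linarith
    have h2 : ∑ χ ∈ Sᶜ.erase x, ν χ * ν χ = 0 :=
      le_antisymm h1 (Finset.sum_nonneg (fun χ _ => mul_self_nonneg _))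
    intro χ hχ
    have := (Finset.sum_eq_zero_iff_of_nonneg (fun χ _ => mul_self_nonneg _)).mp h2 χ hχ
    exact mul_self_eq_zero.mp this
  have hDx : (D x : ℤ) = q * D b := by
    rw [← Finset.add_sum_erase _ _ hxS, hνx,
      Finset.sum_eq_zero (fun χ hχ => by rw [hrest χ hχ, zero_mul])] at r2
    linarith
  have hxS' : x ∉ S := Finset.mem_compl.mp hxS
  have hTS : ∀ i ∈ I, T i ⊆ S := by
    intro i hi χ hχ
    rw [hS]
    by_cases h : i = i₀
    · rw [h] at hχ
      exact Finset.mem_insert_of_mem (Finset.mem_union_left _ hχ)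
    · rw [(ha i hi h).2, Finset.mem_insert, Finset.mem_erase] at hχ
      rcases hχ with h1 | h1
      · rw [h1]
        exact Finset.mem_insert_of_mem (Finset.mem_union_right _
          (Finset.mem_image_of_mem a (Finset.mem_erase.mpr ⟨h, hi⟩)))
      · exact Finset.mem_insert_of_mem (Finset.mem_union_left _ h1.2)
  have mx : ∀ i ∈ I, (m i x : ℤ) = 0 := by
    intro i hi
    rw [hm_ite i hi x, if_neg (fun h => hxS' (hTS i hi h))]
    simp
  have cx : c x = 0 := by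
    by_contra hcx
    rcases hc x hcx with h | h
    · apply hxS'
      rw [h, hS]
      exact Finset.mem_insert_self _ _
    · exact hxS' (hTS i₀ hi₀ ((memT i₀ x).mpr (h i₀ hi₀)))
  have ax := arel x
  rw [cx, Finset.sum_eq_zero mx, hDx] at ax
  have ab := arel b
  rw [cb, sb] at ab
  have aa : ∀ j ∈ I.erase i₀, X (a j) = X b := by
    intro j hj
    rw [Finset.mem_erase] at hj
    have h1 := arel (a j)
    rw [ca j hj.2 hj.1, sa j hj.2 hj.1, hDa j hj.2 hj.1] at h1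
    have h2 : ((q : ℤ) - 1) * (X (a j) - X b) = 0 := by linarith
    rcases mul_eq_zero.mp h2 with h | h
    · linarith
    · linarith
  -- the parameter `y`
  obtain ⟨y, hy⟩ : ∃ y : ℤ, y = q - X b := ⟨_, rfl⟩
  have hDy : (D b : ℤ) = ((q : ℤ) - 1) * y := by
    rw [hy]
    push_cast at ab
    linarith
  have hy1 : 1 ≤ y := by
    by_contra hcon
    push Not at hcon
    nlinarith
  have hXx : X x = -(q * y) := by
    rw [hDy] at ax
    push_cast at ax
    have h2 : ((q : ℤ) - 1) * (X x + q * y) = 0 := by linarith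
    rcases mul_eq_zero.mp h2 with h | h
    · linarith
    · linarith
  have hXb : X b = q - y := by rw [hy]; ring
  -- column orthogonality
  have hbS : b ∈ S := hTS i₀ hi₀ hb
  have hxb : x ≠ b := fun h => hxS' (h ▸ hbS)
  have hba : b ∉ (I.erase i₀).image a := fun h => (Finset.disjoint_left.mp hdisj) hb h
  have hxa : x ∉ insert b ((I.erase i₀).image a) := by
    rw [Finset.mem_insert]
    rintro (h | h)
    · exact hxb h
    · apply hxS'
      rw [hS]
      exact Finset.mem_insert_of_mem (Finset.mem_union_right _ h)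
  have hle : ∑ χ ∈ insert x (insert b ((I.erase i₀).image a)), X χ * X χ ≤ ∑ χ, X χ * X χ :=
    Finset.sum_le_sum_of_subset_of_nonneg (Finset.subset_univ _)
      (fun χ _ _ => mul_self_nonneg _)
  rw [hcol, Finset.sum_insert hxa, Finset.sum_insert hba, Finset.sum_image hinj,
    Finset.sum_congr rfl (fun j hj => by rw [aa j hj]), Finset.sum_const, cI', hXx, hXb] at hle
  simp only [nsmul_eq_mul] at hle
  have hy2 : y = 1 := by
    by_contra hne
    have hy2 : 2 ≤ y := by omega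
    have h1 : 2 ≤ ((q : ℤ) ^ 2 + q + 1) * y - 2 * q * (q + 1) := by nlinarith
    have h2 : 0 < y * (((q : ℤ) ^ 2 + q + 1) * y - 2 * q * (q + 1)) + (q : ℤ) ^ 2 := by
      nlinarith
    nlinarith
  have hXD : X b = D b := by
    rw [hXb, hDy, hy2]
    ring
  have hD1 := hker b hXD
  rw [hD1, hy2] at hDy
  push_cast at hDy
  linarith

end Cfsg.Agent.Lib.Helper25.SuzNumB
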